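import Mathlib
import Cfsg.Agent.Lib.Helper18.SLMDefs

/-!
# Project SLM (helper18, S2332), piece ADDCHAR

A finite field has a nontrivial additive character with complex values.
-/

set_option autoImplicit false

namespace Cfsg.Agent.Lib.Helper18.SLM

open Matrix

universe u

variable {F : Type u} [Field F] [Fintype F]

-- piece ADDCHAR
theorem exists_addChar : ∃ ψ : AddChar F ℂ, ψ ≠ 1 := by
  obtain ⟨ψ, hψ⟩ := (AddChar.exists_apply_ne_zero (α := F) (a := 1)).2 one_ne_zero
  refine ⟨ψ, ?_⟩
  rw [AddChar.ne_one_iff]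
  exact ⟨1, hψ⟩

end Cfsg.Agent.Lib.Helper18.SLM
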