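import Mathlib

/-!
# Concrete models of the fields with four and three elements

`F4 = {o, i, w, v}` (that is `0, 1, ω, ω²`) and `F3 = {z, o, t}` (that is `0, 1, 2`), with
operations given by tables, so that the kernel can evaluate them quickly.
-/

set_option autoImplicit false

namespace Cfsg.Agent.Lib.Helper99.U42

/-- the field with four elements: `0, 1, ω, ω²` -/
inductive F4 : Type
  | o | i | w | v
  deriving DecidableEq

instance : Fintype F4 where
  elems := ⟨↑[F4.o, F4.i, F4.w, F4.v], by decide⟩
  complete := fun x => by cases x <;> decide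

/-- the field with three elements: `0, 1, 2` -/
inductive F3 : Type
  | z | o | t
  deriving DecidableEq

instance : Fintype F3 where
  elems := ⟨↑[F3.z, F3.o, F3.t], by decide⟩
  complete := fun x => by cases x <;> decide

namespace F4

/-- table -/
def add : F4 → F4 → F4
  | .o, .o => .o
  | .o, .i => .i
  | .o, .w => .w
  | .o, .v => .v
  | .i, .o => .i
  | .i, .i => .o
  | .i, .w => .v
  | .i, .v => .w
  | .w, .o => .w
  | .w, .i => .v
  | .w, .w => .o
  | .w, .v => .i
  | .v, .o => .v
  | .v, .i => .w
  | .v, .w => .i
  | .v, .v => .o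

/-- table -/
def mul : F4 → F4 → F4
  | .o, .o => .o
  | .o, .i => .o
  | .o, .w => .o
  | .o, .v => .o
  | .i, .o => .o
  | .i, .i => .i
  | .i, .w => .w
  | .i, .v => .v
  | .w, .o => .o
  | .w, .i => .w
  | .w, .w => .v
  | .w, .v => .i
  | .v, .o => .o
  | .v, .i => .v
  | .v, .w => .i
  | .v, .v => .w

/-- table -/
def inv : F4 → F4
  | .o => .o
  | .i => .i
  | .w => .v
  | .v => .w


theorem add_assoc' : ∀ a b c : F4, add (add a b) c = add a (add b c) := by decide
theorem zero_add' : ∀ a : F4, add o a = a := by decide
theorem add_zero' : ∀ a : F4, add a o = a := by decide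
theorem neg_add' : ∀ a : F4, add a a = o := by decide
theorem add_comm' : ∀ a b : F4, add a b = add b a := by decide
theorem left_distrib' : ∀ a b c : F4, mul a (add b c) = add (mul a b) (mul a c) := by decide
theorem right_distrib' : ∀ a b c : F4, mul (add a b) c = add (mul a c) (mul b c) := by decide
theorem zero_mul' : ∀ a : F4, mul o a = o := by decide
theorem mul_zero' : ∀ a : F4, mul a o = o := by decide
theorem mul_assoc' : ∀ a b c : F4, mul (mul a b) c = mul a (mul b c) := by decide
theorem one_mul' : ∀ a : F4, mul i a = a := by decide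
theorem mul_one' : ∀ a : F4, mul a i = a := by decide
theorem mul_comm' : ∀ a b : F4, mul a b = mul b a := by decide
theorem mul_inv' : ∀ a : F4, a ≠ o → mul a (inv a) = i := by decide

instance : Zero F4 := ⟨o⟩
instance : One F4 := ⟨i⟩
instance : Add F4 := ⟨add⟩
instance : Mul F4 := ⟨mul⟩
instance : Neg F4 := ⟨fun a => a⟩
instance : Inv F4 := ⟨inv⟩

instance instCommRing : CommRing F4 where
  add_assoc := add_assoc'
  zero_add := zero_add'
  add_zero := add_zero'
  nsmul := nsmulRec
  zsmul := zsmulRec
  neg_add_cancel := neg_add'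
  add_comm := add_comm'
  left_distrib := left_distrib'
  right_distrib := right_distrib'
  zero_mul := zero_mul'
  mul_zero := mul_zero'
  mul_assoc := mul_assoc'
  one_mul := one_mul'
  mul_one := mul_one'
  mul_comm := mul_comm'

instance instField : Field F4 where
  toCommRing := instCommRing
  exists_pair_ne := ⟨o, i, by decide⟩
  mul_inv_cancel := mul_inv'
  inv_zero := rfl
  nnqsmul := _
  nnqsmul_def := fun _ _ => rfl
  qsmul := _
  qsmul_def := fun _ _ => rfl

theorem card : Fintype.card F4 = 4 := rfl

theorem add_def (a b : F4) : a + b = add a b := rfl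
theorem mul_def (a b : F4) : a * b = mul a b := rfl
theorem zero_def : (0 : F4) = o := rfl
theorem one_def : (1 : F4) = i := rfl

end F4

namespace F3

/-- table -/
def add : F3 → F3 → F3
  | .z, .z => .z
  | .z, .o => .o
  | .z, .t => .t
  | .o, .z => .o
  | .o, .o => .t
  | .o, .t => .z
  | .t, .z => .t
  | .t, .o => .z
  | .t, .t => .o

/-- table -/
def mul : F3 → F3 → F3
  | .z, .z => .z
  | .z, .o => .z
  | .z, .t => .z
  | .o, .z => .z
  | .o, .o => .o
  | .o, .t => .t
  | .t, .z => .z
  | .t, .o => .t
  | .t, .t => .o

/-- table -/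
def neg : F3 → F3
  | .z => .z
  | .o => .t
  | .t => .o


theorem add_assoc' : ∀ a b c : F3, add (add a b) c = add a (add b c) := by decide
theorem zero_add' : ∀ a : F3, add z a = a := by decide
theorem add_zero' : ∀ a : F3, add a z = a := by decide
theorem neg_add' : ∀ a : F3, add (neg a) a = z := by decide
theorem add_comm' : ∀ a b : F3, add a b = add b a := by decide
theorem left_distrib' : ∀ a b c : F3, mul a (add b c) = add (mul a b) (mul a c) := by decide
theorem right_distrib' : ∀ a b c : F3, mul (add a b) c = add (mul a c) (mul b c) := by decide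
theorem zero_mul' : ∀ a : F3, mul z a = z := by decide
theorem mul_zero' : ∀ a : F3, mul a z = z := by decide
theorem mul_assoc' : ∀ a b c : F3, mul (mul a b) c = mul a (mul b c) := by decide
theorem one_mul' : ∀ a : F3, mul o a = a := by decide
theorem mul_one' : ∀ a : F3, mul a o = a := by decide
theorem mul_comm' : ∀ a b : F3, mul a b = mul b a := by decide
theorem mul_inv' : ∀ a : F3, a ≠ z → mul a a = o := by decide

instance : Zero F3 := ⟨z⟩
instance : One F3 := ⟨o⟩
instance : Add F3 := ⟨add⟩
instance : Mul F3 := ⟨mul⟩
instance : Neg F3 := ⟨neg⟩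
instance : Inv F3 := ⟨fun a => a⟩

instance instCommRing : CommRing F3 where
  add_assoc := add_assoc'
  zero_add := zero_add'
  add_zero := add_zero'
  nsmul := nsmulRec
  zsmul := zsmulRec
  neg_add_cancel := neg_add'
  add_comm := add_comm'
  left_distrib := left_distrib'
  right_distrib := right_distrib'
  zero_mul := zero_mul'
  mul_zero := mul_zero'
  mul_assoc := mul_assoc'
  one_mul := one_mul'
  mul_one := mul_one'
  mul_comm := mul_comm'

instance instField : Field F3 where
  toCommRing := instCommRing
  exists_pair_ne := ⟨z, o, by decide⟩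
  mul_inv_cancel := mul_inv'
  inv_zero := rfl
  nnqsmul := _
  nnqsmul_def := fun _ _ => rfl
  qsmul := _
  qsmul_def := fun _ _ => rfl

theorem card : Fintype.card F3 = 3 := rfl

theorem add_def (a b : F3) : a + b = add a b := rfl
theorem mul_def (a b : F3) : a * b = mul a b := rfl
theorem zero_def : (0 : F3) = z := rfl
theorem one_def : (1 : F3) = o := rfl
theorem neg_one_def : (-1 : F3) = t := rfl

end F3

end Cfsg.Agent.Lib.Helper99.U42
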