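import Mathlib
import Cfsg.Prelude.Def_ChevG2
import Cfsg.Agent.Lib.Helper99.F4F3

/-!
# Matrices over the field with four elements, computed on numerical codes

A vector of `F4¹⁴` is coded by a natural number with fourteen base-four digits; a matrix is coded
by a table of forty-two codes (the three nonzero multiples of each column).  The product of
matrices and the action on vectors are computed on the codes, and orbit lengths of subgroups
generated by coded matrices are bounded below by certificates.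
-/

set_option autoImplicit false

namespace Cfsg.Agent.Lib.Helper99.G24

open Cfsg.Lie Matrix Cfsg.Agent.Lib.Helper99.U42

/-- the position of an index -/
def enc : chevG2.Idx → ℕ := Sum.elim (fun a => a.val) (fun b => 2 + b.val)

/-- the element of `F4` with a given number -/
def f4n : ℕ → F4
  | 0 => .o
  | 1 => .i
  | 2 => .w
  | _ => .v

/-- the base-four digit of the code `c` at the place `k` -/
def dg (c k : ℕ) : ℕ := (c >>> (2 * k)) &&& 3

/-- the vector with the code `c` -/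
def vk (c : ℕ) : chevG2.Idx → F4 := fun i => f4n (dg c (enc i))

theorem dg_lt (c k : ℕ) : dg c k < 4 := by
  have h : (c >>> (2 * k)) &&& 3 ≤ 3 := Nat.and_le_right
  unfold dg
  omega

theorem dg_xor (a b k : ℕ) : dg (a ^^^ b) k = dg a k ^^^ dg b k := by
  unfold dg
  rw [Nat.shiftRight_xor_distrib, Nat.and_xor_distrib_right]

theorem dg_zero (k : ℕ) : dg 0 k = 0 := by
  unfold dg
  rw [Nat.zero_shiftRight, Nat.zero_and]

theorem f4n_xor : ∀ x < 4, ∀ y < 4, f4n (x ^^^ y) = f4n x + f4n y := by decide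

theorem f4n_inj : ∀ x < 4, ∀ y < 4, f4n x = f4n y → x = y := by decide

theorem vk_xor (a b : ℕ) : vk (a ^^^ b) = vk a + vk b := by
  funext i
  show f4n (dg (a ^^^ b) (enc i)) = f4n (dg a (enc i)) + f4n (dg b (enc i))
  rw [dg_xor]
  exact f4n_xor _ (dg_lt _ _) _ (dg_lt _ _)

theorem vk_zero : vk 0 = 0 := by
  funext i
  show f4n (dg 0 (enc i)) = 0
  rw [dg_zero]
  rfl

/-- the entry of the table for the multiple `d` of the column `j` -/
def sel (T : List ℕ) (j d : ℕ) : ℕ :=
  match d with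
  | 0 => 0
  | 1 => T.getD (3 * j) 0
  | 2 => T.getD (3 * j + 1) 0
  | _ => T.getD (3 * j + 2) 0

/-- the action of a coded matrix on a coded vector -/
def act (T : List ℕ) (c : ℕ) : ℕ :=
  sel T 0 (dg c 0) ^^^ (sel T 1 (dg c 1) ^^^ (sel T 2 (dg c 2) ^^^ (sel T 3 (dg c 3) ^^^
  (sel T 4 (dg c 4) ^^^ (sel T 5 (dg c 5) ^^^ (sel T 6 (dg c 6) ^^^ (sel T 7 (dg c 7) ^^^
  (sel T 8 (dg c 8) ^^^ (sel T 9 (dg c 9) ^^^ (sel T 10 (dg c 10) ^^^ (sel T 11 (dg c 11) ^^^
  (sel T 12 (dg c 12) ^^^ sel T 13 (dg c 13)))))))))))))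

/-- the entries of the matrix with the table `T` -/
def entT (T : List ℕ) (i j : chevG2.Idx) : F4 := f4n (dg (T.getD (3 * enc j) 0) (enc i))

/-- the matrix with the table `T` -/
def matT (T : List ℕ) : Matrix chevG2.Idx chevG2.Idx F4 := Matrix.of (entT T)

/-- the table is consistent: its entries are the multiples of the columns -/
def Cons (T : List ℕ) : Prop :=
  ∀ j < 14, vk (T.getD (3 * j + 1) 0) = F4.w • vk (T.getD (3 * j) 0) ∧
    vk (T.getD (3 * j + 2) 0) = F4.v • vk (T.getD (3 * j) 0)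

/-- multiplication of a digit by `ω` -/
def mw : ℕ → ℕ
  | 0 => 0
  | 1 => 2
  | 2 => 3
  | _ => 1

/-- multiplication of a digit by `ω²` -/
def mv : ℕ → ℕ
  | 0 => 0
  | 1 => 3
  | 2 => 1
  | _ => 2

theorem f4n_mw : ∀ x < 4, f4n (mw x) = F4.w * f4n x := by decide

theorem f4n_mv : ∀ x < 4, f4n (mv x) = F4.v * f4n x := by decide

/-- the consistency of a table, on the digits -/
def ConsD (T : List ℕ) : Prop :=
  ∀ j < 14, ∀ k < 14, dg (T.getD (3 * j + 1) 0) k = mw (dg (T.getD (3 * j) 0) k) ∧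
    dg (T.getD (3 * j + 2) 0) k = mv (dg (T.getD (3 * j) 0) k)

instance (T : List ℕ) : Decidable (ConsD T) := by
  unfold ConsD
  infer_instance

theorem enc_lt (i : chevG2.Idx) : enc i < 14 := by
  rcases i with a | b
  · have := a.2
    show a.val < 14
    have h2 : chevG2.rank = 2 := rfl
    omega
  · have := b.2
    show 2 + b.val < 14
    have h2 : chevG2.nroots = 12 := rfl
    omega

theorem cons_of_consD (T : List ℕ) (h : ConsD T) : Cons T := by
  intro j hj
  constructor
  · funext i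
    show f4n (dg (T.getD (3 * j + 1) 0) (enc i)) = F4.w * f4n (dg (T.getD (3 * j) 0) (enc i))
    rw [(h j hj (enc i) (enc_lt i)).1]
    exact f4n_mw _ (dg_lt _ _)
  · funext i
    show f4n (dg (T.getD (3 * j + 2) 0) (enc i)) = F4.v * f4n (dg (T.getD (3 * j) 0) (enc i))
    rw [(h j hj (enc i) (enc_lt i)).2]
    exact f4n_mv _ (dg_lt _ _)

theorem vk_sel (T : List ℕ) (hT : Cons T) (j : ℕ) (hj : j < 14) (d : ℕ) (hd : d < 4) :
    vk (sel T j d) = f4n d • vk (T.getD (3 * j) 0) := by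
  interval_cases d
  · show vk 0 = (0 : F4) • _
    rw [vk_zero, zero_smul]
  · show vk (T.getD (3 * j) 0) = (1 : F4) • _
    rw [one_smul]
  · exact (hT j hj).1
  · exact (hT j hj).2

theorem sum_enc (g : ℕ → F4) :
    ∑ j : chevG2.Idx, g (enc j) = g 0 + (g 1 + (g 2 + (g 3 + (g 4 + (g 5 + (g 6 + (g 7 +
      (g 8 + (g 9 + (g 10 + (g 11 + (g 12 + g 13)))))))))))) := by
  have h : ∀ f : Fin 2 ⊕ Fin 12 → F4,
      ∑ j, f j = (f (Sum.inl 0) + f (Sum.inl 1)) + (f (Sum.inr 0) + (f (Sum.inr 1) +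
      (f (Sum.inr 2) + (f (Sum.inr 3) + (f (Sum.inr 4) + (f (Sum.inr 5) + (f (Sum.inr 6) +
      (f (Sum.inr 7) + (f (Sum.inr 8) + (f (Sum.inr 9) + (f (Sum.inr 10) +
      f (Sum.inr 11)))))))))))) := by
    intro f
    rw [Fintype.sum_sum_type, Fin.sum_univ_two]
    simp only [Fin.sum_univ_succ, Fin.sum_univ_zero, add_zero]
    rfl
  have h' := h (fun j => g (enc j))
  rw [add_assoc] at h'
  exact h'

theorem mulVec_vk (T : List ℕ) (hT : Cons T) (c : ℕ) : matT T *ᵥ vk c = vk (act T c) := by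
  have e : vk (act T c) = f4n (dg c 0) • vk (T.getD (3 * 0) 0) +
      (f4n (dg c 1) • vk (T.getD (3 * 1) 0) + (f4n (dg c 2) • vk (T.getD (3 * 2) 0) +
      (f4n (dg c 3) • vk (T.getD (3 * 3) 0) + (f4n (dg c 4) • vk (T.getD (3 * 4) 0) +
      (f4n (dg c 5) • vk (T.getD (3 * 5) 0) + (f4n (dg c 6) • vk (T.getD (3 * 6) 0) +
      (f4n (dg c 7) • vk (T.getD (3 * 7) 0) + (f4n (dg c 8) • vk (T.getD (3 * 8) 0) +
      (f4n (dg c 9) • vk (T.getD (3 * 9) 0) + (f4n (dg c 10) • vk (T.getD (3 * 10) 0) +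
      (f4n (dg c 11) • vk (T.getD (3 * 11) 0) + (f4n (dg c 12) • vk (T.getD (3 * 12) 0) +
      f4n (dg c 13) • vk (T.getD (3 * 13) 0))))))))))))) := by
    unfold act
    simp only [vk_xor]
    rw [vk_sel T hT 0 (by norm_num) _ (dg_lt c 0), vk_sel T hT 1 (by norm_num) _ (dg_lt c 1),
      vk_sel T hT 2 (by norm_num) _ (dg_lt c 2), vk_sel T hT 3 (by norm_num) _ (dg_lt c 3),
      vk_sel T hT 4 (by norm_num) _ (dg_lt c 4), vk_sel T hT 5 (by norm_num) _ (dg_lt c 5),
      vk_sel T hT 6 (by norm_num) _ (dg_lt c 6), vk_sel T hT 7 (by norm_num) _ (dg_lt c 7),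
      vk_sel T hT 8 (by norm_num) _ (dg_lt c 8), vk_sel T hT 9 (by norm_num) _ (dg_lt c 9),
      vk_sel T hT 10 (by norm_num) _ (dg_lt c 10), vk_sel T hT 11 (by norm_num) _ (dg_lt c 11),
      vk_sel T hT 12 (by norm_num) _ (dg_lt c 12), vk_sel T hT 13 (by norm_num) _ (dg_lt c 13)]
  rw [e]
  funext i
  show ∑ j, matT T i j * vk c j = _
  have e2 : ∀ j : chevG2.Idx, matT T i j * vk c j =
      (fun n => f4n (dg c n) * f4n (dg (T.getD (3 * n) 0) (enc i))) (enc j) := by
    intro j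
    show f4n (dg (T.getD (3 * enc j) 0) (enc i)) * f4n (dg c (enc j)) = _
    exact mul_comm _ _
  have e3 : ∑ j, matT T i j * vk c j = ∑ j : chevG2.Idx,
      (fun n => f4n (dg c n) * f4n (dg (T.getD (3 * n) 0) (enc i))) (enc j) :=
    Finset.sum_congr rfl (fun j _ => e2 j)
  rw [e3, sum_enc (fun n => f4n (dg c n) * f4n (dg (T.getD (3 * n) 0) (enc i)))]
  rfl

theorem sel_zero (T : List ℕ) (j : ℕ) : sel T j 0 = 0 := rfl

theorem act_zero (T : List ℕ) : act T 0 = 0 := by
  unfold act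
  simp only [dg_zero, sel_zero, Nat.xor_self]

/-- the product of coded matrices -/
def mulT (T1 T2 : List ℕ) : List ℕ := T2.map (act T1)

theorem getD_mulT (T1 T2 : List ℕ) (k : ℕ) :
    (mulT T1 T2).getD k 0 = act T1 (T2.getD k 0) := by
  unfold mulT
  have h := List.getD_map (f := act T1) (l := T2) (n := k) (d := 0)
  rw [act_zero] at h
  exact h

theorem matT_mulT (T1 T2 : List ℕ) (h1 : Cons T1) : matT (mulT T1 T2) = matT T1 * matT T2 := by
  ext i j
  show f4n (dg ((mulT T1 T2).getD (3 * enc j) 0) (enc i)) = _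
  rw [getD_mulT]
  have h := congrFun (mulVec_vk T1 h1 (T2.getD (3 * enc j) 0)) i
  exact h.symm

theorem cons_mulT (T1 T2 : List ℕ) (h1 : Cons T1) (h2 : Cons T2) : Cons (mulT T1 T2) := by
  intro j hj
  rw [getD_mulT, getD_mulT, getD_mulT, ← mulVec_vk T1 h1, ← mulVec_vk T1 h1, ← mulVec_vk T1 h1,
    (h2 j hj).1, (h2 j hj).2, Matrix.mulVec_smul, Matrix.mulVec_smul]
  exact ⟨rfl, rfl⟩

/-- the table of the identity matrix -/
def idT : List ℕ := (List.range 14).flatMap fun j => [1 <<< (2 * j), 2 <<< (2 * j), 3 <<< (2 * j)]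

theorem consD_idT : ConsD idT := by decide +kernel

theorem cons_idT : Cons idT := cons_of_consD idT consD_idT

/-- an entry of the identity matrix -/
def ent1 (i j : chevG2.Idx) : F4 := (1 : Matrix chevG2.Idx chevG2.Idx F4) i j

theorem matT_idT_apply : ∀ i j : chevG2.Idx, entT idT i j = ent1 i j := by decide +kernel

theorem matT_idT : matT idT = 1 := by
  ext i j
  exact matT_idT_apply i j

/-- the unit `g` has the table `T` -/
def Rep (g : GL chevG2.Idx F4) (T : List ℕ) : Prop :=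
  Cons T ∧ (g : Matrix chevG2.Idx chevG2.Idx F4) = matT T

theorem Rep.one : Rep 1 idT := ⟨cons_idT, by rw [Units.val_one, matT_idT]⟩

theorem Rep.mul {g h : GL chevG2.Idx F4} {T U : List ℕ} (hg : Rep g T) (hh : Rep h U) :
    Rep (g * h) (mulT T U) :=
  ⟨cons_mulT T U hg.1 hh.1, by rw [Units.val_mul, hg.2, hh.2, matT_mulT T U hg.1]⟩

theorem Rep.act {g : GL chevG2.Idx F4} {T : List ℕ} (hg : Rep g T) (c : ℕ) :
    (g : Matrix chevG2.Idx chevG2.Idx F4) *ᵥ vk c = vk (act T c) := by
  rw [hg.2, mulVec_vk T hg.1]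

theorem Rep.eq {g h : GL chevG2.Idx F4} {T : List ℕ} (hg : Rep g T) (hh : Rep h T) : g = h :=
  Units.ext (hg.2.trans hh.2.symm)

/-- the table of a word in coded generators -/
def prodT (tb : ℕ → List ℕ) (w : List ℕ) : List ℕ := w.foldr (fun s acc => mulT (tb s) acc) idT

theorem Rep.prod (gens : ℕ → GL chevG2.Idx F4) (tb : ℕ → List ℕ) (h : ∀ s, Rep (gens s) (tb s))
    (w : List ℕ) : Rep ((w.map gens).prod) (prodT tb w) := by
  induction w with
  | nil => exact Rep.one
  | cons s w ih =>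
    rw [List.map_cons, List.prod_cons]
    exact Rep.mul (h s) ih

/-- the image of a coded vector under a word in coded generators -/
def applyW (tb : ℕ → List ℕ) (w : List ℕ) (c : ℕ) : ℕ := w.foldr (fun s x => act (tb s) x) c

theorem applyW_spec (gens : ℕ → GL chevG2.Idx F4) (tb : ℕ → List ℕ) (h : ∀ s, Rep (gens s) (tb s))
    (w : List ℕ) (c : ℕ) :
    (((w.map gens).prod : GL chevG2.Idx F4) : Matrix chevG2.Idx chevG2.Idx F4) *ᵥ vk c =
      vk (applyW tb w c) := by
  induction w with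
  | nil =>
    show ((1 : GL chevG2.Idx F4) : Matrix chevG2.Idx chevG2.Idx F4) *ᵥ vk c = vk c
    rw [Units.val_one, Matrix.one_mulVec]
  | cons s w ih =>
    rw [List.map_cons, List.prod_cons, Units.val_mul, ← Matrix.mulVec_mulVec, ih]
    exact (h s).act _

/-! ### Codes and vectors -/

theorem dg_eq (c k : ℕ) : dg c k = c / 4 ^ k % 4 := by
  unfold dg
  rw [Nat.shiftRight_eq_div_pow, pow_mul]
  exact Nat.and_two_pow_sub_one_eq_mod _ 2

theorem code_inj : ∀ (n a b : ℕ), a < 4 ^ n → b < 4 ^ n → (∀ k < n, dg a k = dg b k) → a = b := by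
  intro n
  induction n with
  | zero =>
    intro a b ha hb _
    simp only [pow_zero] at ha hb
    omega
  | succ n ih =>
    intro a b ha hb h
    have h0 := h 0 (Nat.succ_pos n)
    rw [dg_eq, dg_eq, pow_zero, Nat.div_one, Nat.div_one] at h0
    have h1 : a / 4 = b / 4 := by
      apply ih
      · rw [pow_succ] at ha
        omega
      · rw [pow_succ] at hb
        omega
      · intro k hk
        have := h (k + 1) (Nat.succ_lt_succ hk)
        rw [dg_eq, dg_eq, pow_succ, mul_comm, ← Nat.div_div_eq_div_mul,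
          ← Nat.div_div_eq_div_mul] at this
        rw [dg_eq, dg_eq]
        exact this
    omega

theorem enc_surj : ∀ k < 14, ∃ i : chevG2.Idx, enc i = k := by decide

theorem vk_inj (a b : ℕ) (ha : a < 268435456) (hb : b < 268435456) (h : vk a = vk b) : a = b := by
  apply code_inj 14 a b (by norm_num; exact ha) (by norm_num; exact hb)
  intro k hk
  obtain ⟨i, rfl⟩ := enc_surj k hk
  exact f4n_inj _ (dg_lt _ _) _ (dg_lt _ _) (congrFun h i)

/-! ### Orbit certificates -/

/-- the check of an orbit certificate: increasing codes, each the image of the start under a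
word -/
def chkOrb (tb : ℕ → List ℕ) (start : ℕ) : ℕ → List (ℕ × List ℕ) → Bool
  | _, [] => true
  | prev, p :: r => decide (prev < p.1) && (decide (p.1 < 268435456) &&
      ((applyW tb p.2 start == p.1) && chkOrb tb start p.1 r))

theorem chkOrb_spec (tb : ℕ → List ℕ) (start : ℕ) : ∀ (L : List (ℕ × List ℕ)) (prev : ℕ),
    chkOrb tb start prev L = true →
    (∀ p ∈ L, prev < p.1 ∧ p.1 < 268435456 ∧ applyW tb p.2 start = p.1) ∧
      (L.map Prod.fst).Pairwise (· < ·) := by
  intro L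
  induction L with
  | nil =>
    intro prev _
    exact ⟨fun p hp => absurd hp List.not_mem_nil, List.Pairwise.nil⟩
  | cons p r ih =>
    intro prev h
    have h' : (prev < p.1 ∧ p.1 < 268435456 ∧ applyW tb p.2 start = p.1) ∧
        chkOrb tb start p.1 r = true := by
      simpa [chkOrb, and_assoc] using h
    obtain ⟨⟨h1, h2, h3⟩, h4⟩ := h'
    obtain ⟨i1, i2⟩ := ih p.1 h4
    constructor
    · intro q hq
      rcases List.mem_cons.mp hq with rfl | hq
      · exact ⟨h1, h2, h3⟩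
      · obtain ⟨j1, j2, j3⟩ := i1 q hq
        exact ⟨h1.trans j1, j2, j3⟩
    · rw [List.map_cons, List.pairwise_cons]
      refine ⟨?_, i2⟩
      intro c hc
      obtain ⟨q, hq, rfl⟩ := List.mem_map.mp hc
      exact (i1 q hq).1

/-- an orbit certificate gives as many distinct vectors in the orbit as its length -/
theorem orbit_of_chk (gens : ℕ → GL chevG2.Idx F4) (tb : ℕ → List ℕ)
    (h : ∀ s, Rep (gens s) (tb s)) (start : ℕ) (L : List (ℕ × List ℕ))
    (hL : chkOrb tb start 0 L = true) :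
    ∃ S : Finset (chevG2.Idx → F4), S.card = L.length ∧ ∀ x ∈ S,
      ∃ g ∈ Subgroup.closure (Set.range gens),
        (g : Matrix chevG2.Idx chevG2.Idx F4) *ᵥ vk start = x := by
  classical
  obtain ⟨h1, h2⟩ := chkOrb_spec tb start L 0 hL
  refine ⟨((L.map Prod.fst).map vk).toFinset, ?_, ?_⟩
  · rw [List.toFinset_card_of_nodup, List.length_map, List.length_map]
    apply List.Nodup.map_on
    · intro a ha b hb hab
      obtain ⟨p, hp, rfl⟩ := List.mem_map.mp ha
      obtain ⟨q, hq, rfl⟩ := List.mem_map.mp hb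
      exact vk_inj _ _ (h1 p hp).2.1 (h1 q hq).2.1 hab
    · exact h2.imp (fun hab => ne_of_lt hab)
  · intro x hx
    rw [List.mem_toFinset] at hx
    obtain ⟨c, hc, rfl⟩ := List.mem_map.mp hx
    obtain ⟨p, hp, rfl⟩ := List.mem_map.mp hc
    refine ⟨(p.2.map gens).prod, ?_, ?_⟩
    · apply Subgroup.list_prod_mem
      intro y hy
      obtain ⟨s, _, rfl⟩ := List.mem_map.mp hy
      exact Subgroup.subset_closure ⟨s, rfl⟩
    · rw [applyW_spec gens tb h, (h1 p hp).2.2]

/-! ### Counting -/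

/-- if a function on a group is invariant under right multiplication by a subgroup `K'` of `K`
and takes `n` distinct values on `K`, then `n * |K'| ≤ |K|` -/
theorem card_step {Γ X : Type*} [Group Γ] [Finite Γ] (K K' : Subgroup Γ) (hle : K' ≤ K)
    (f : Γ → X) (hf : ∀ g, ∀ k ∈ K', f (g * k) = f g) (S : Finset X)
    (hS : ∀ x ∈ S, ∃ g ∈ K, f g = x) : S.card * Nat.card K' ≤ Nat.card K := by
  classical
  have h0 : Nat.card (K'.subgroupOf K) = Nat.card K' :=
    Nat.card_congr (Subgroup.subgroupOfEquivOfLe hle).toEquiv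
  have h1 : (K'.subgroupOf K).index * Nat.card K' = Nat.card K := by
    rw [← h0]
    exact Subgroup.index_mul_card _
  rw [← h1]
  apply Nat.mul_le_mul_right
  choose! φ hφ using hS
  let F : S → K ⧸ K'.subgroupOf K := fun x => QuotientGroup.mk ⟨φ x.1, (hφ x.1 x.2).1⟩
  have hF : Function.Injective F := by
    intro x y hxy
    have h2 := QuotientGroup.eq.mp hxy
    rw [Subgroup.mem_subgroupOf] at h2
    have h3 : (φ x.1)⁻¹ * φ y.1 ∈ K' := h2
    have e : f (φ x.1 * ((φ x.1)⁻¹ * φ y.1)) = f (φ x.1) := hf _ _ h3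
    rw [mul_inv_cancel_left] at e
    apply Subtype.ext
    rw [← (hφ x.1 x.2).2, ← (hφ y.1 y.2).2, e]
  have h4 := Nat.card_le_card_of_injective F hF
  rw [Nat.card_eq_fintype_card, Fintype.card_coe] at h4
  exact h4

/-- the subgroup of the matrices fixing a vector -/
def fixG (v : chevG2.Idx → F4) : Subgroup (GL chevG2.Idx F4) where
  carrier := {g | (g : Matrix chevG2.Idx chevG2.Idx F4) *ᵥ v = v}
  mul_mem' := by
    intro a b ha hb
    show ((a * b : GL chevG2.Idx F4) : Matrix chevG2.Idx chevG2.Idx F4) *ᵥ v = v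
    rw [Units.val_mul, ← Matrix.mulVec_mulVec]
    have hb' : (b : Matrix chevG2.Idx chevG2.Idx F4) *ᵥ v = v := hb
    rw [hb']
    exact ha
  one_mem' := by
    show ((1 : GL chevG2.Idx F4) : Matrix chevG2.Idx chevG2.Idx F4) *ᵥ v = v
    rw [Units.val_one, Matrix.one_mulVec]
  inv_mem' := by
    intro a ha
    show ((a⁻¹ : GL chevG2.Idx F4) : Matrix chevG2.Idx chevG2.Idx F4) *ᵥ v = v
    have ha' : (a : Matrix chevG2.Idx chevG2.Idx F4) *ᵥ v = v := ha
    calc ((a⁻¹ : GL chevG2.Idx F4) : Matrix chevG2.Idx chevG2.Idx F4) *ᵥ v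
        = ((a⁻¹ : GL chevG2.Idx F4) : Matrix chevG2.Idx chevG2.Idx F4) *ᵥ
            ((a : Matrix chevG2.Idx chevG2.Idx F4) *ᵥ v) := by rw [ha']
      _ = ((a⁻¹ * a : GL chevG2.Idx F4) : Matrix chevG2.Idx chevG2.Idx F4) *ᵥ v := by
          rw [Units.val_mul, Matrix.mulVec_mulVec]
      _ = v := by rw [inv_mul_cancel, Units.val_one, Matrix.one_mulVec]

theorem mem_fixG (v : chevG2.Idx → F4) (g : GL chevG2.Idx F4) :
    g ∈ fixG v ↔ (g : Matrix chevG2.Idx chevG2.Idx F4) *ᵥ v = v := Iff.rfl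

/-- the step of the chain: `K'` fixes the vector `v`, and the orbit of `v` under `K` has at
least `S.card` elements -/
theorem chain_step (K K' : Subgroup (GL chevG2.Idx F4)) (hle : K' ≤ K) (v : chevG2.Idx → F4)
    (hfix : K' ≤ fixG v) (S : Finset (chevG2.Idx → F4))
    (hS : ∀ x ∈ S, ∃ g ∈ K, (g : Matrix chevG2.Idx chevG2.Idx F4) *ᵥ v = x) :
    S.card * Nat.card K' ≤ Nat.card K := by
  refine card_step K K' hle (fun g => (g : Matrix chevG2.Idx chevG2.Idx F4) *ᵥ v) ?_ S hS
  intro g k hk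
  show ((g * k : GL chevG2.Idx F4) : Matrix chevG2.Idx chevG2.Idx F4) *ᵥ v = _
  rw [Units.val_mul, ← Matrix.mulVec_mulVec]
  have hk' : (k : Matrix chevG2.Idx chevG2.Idx F4) *ᵥ v = v := hfix hk
  rw [hk']

end Cfsg.Agent.Lib.Helper99.G24
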