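import Mathlib
import Cfsg.Prelude.Def_ChevG2
import Cfsg.Agent.Lib.Helper99.G24Core
import Cfsg.Agent.Lib.Helper99.G24Data

/-!
# Six elements of `G₂(4)` generating a subgroup of order at least `251596800`

The six products `imgU s` of root elements of `G₂(4)` are represented by tables; the tables
give their relations, and a chain of two stabilisers with orbits of lengths 4095, 1024 and 60
bounds the order of any subgroup containing them from below.
-/

set_option autoImplicit false
set_option maxRecDepth 100000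
set_option maxHeartbeats 0

namespace Cfsg.Agent.Lib.Helper99.G24

open Cfsg.Lie Matrix Cfsg.Agent.Lib.Helper99.U42

theorem getD_ge {α : Type*} (l : List α) (d : α) (k : ℕ) (hk : l.length ≤ k) : l.getD k d = d :=
  List.getD_eq_default _ _ hk

theorem getD_all {α : Type*} (l : List α) (d : α) (P : α → Prop) (hl : ∀ x ∈ l, P x) (hd : P d)
    (k : ℕ) : P (l.getD k d) := by
  by_cases hk : k < l.length
  · rw [List.getD_eq_getElem _ _ hk]
    exact hl _ (List.getElem_mem hk)
  · rw [List.getD_eq_default _ _ (not_lt.mp hk)]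
    exact hd

/-! ### The root elements -/

/-- the root of the root element number `k` -/
def rtR (k : ℕ) : Fin chevG2.nroots := ⟨rtRL.getD k 0 % 12, Nat.mod_lt _ (by norm_num)⟩

/-- the parameter of the root element number `k` -/
def rtT (k : ℕ) : F4 := rtTL.getD k 0

/-- the table of the root element number `k` -/
def RT (k : ℕ) : List ℕ := RTL.getD k idT

/-- an entry of the matrix of the root element number `k` -/
def entX (k : ℕ) (i j : chevG2.Idx) : F4 := chevG2.xMat F4 (rtR k) (rtT k) i j

theorem entX_ok : ∀ k < 11, ∀ i j : chevG2.Idx, entX k i j = entT (RT k) i j := by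
  decide +kernel

theorem RT_consD : ∀ k < 11, ConsD (RT k) := by decide +kernel

theorem RT_sq : ∀ k < 11, mulT (RT k) (RT k) = idT := by decide +kernel

theorem rtR_ge (k : ℕ) (hk : 10 ≤ k) : rtR k = rtR 10 := by
  apply Fin.ext
  show rtRL.getD k 0 % 12 = rtRL.getD 10 0 % 12
  rw [getD_ge rtRL 0 k hk, getD_ge rtRL 0 10 (le_refl _)]

theorem rtT_ge (k : ℕ) (hk : 10 ≤ k) : rtT k = rtT 10 := by
  unfold rtT
  rw [getD_ge rtTL 0 k hk, getD_ge rtTL 0 10 (le_refl _)]

theorem RT_ge (k : ℕ) (hk : 10 ≤ k) : RT k = RT 10 := by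
  unfold RT
  rw [getD_ge RTL idT k hk, getD_ge RTL idT 10 (le_refl _)]

/-- the matrix of the root element number `k` -/
def rootM (k : ℕ) : Matrix chevG2.Idx chevG2.Idx F4 := chevG2.xMat F4 (rtR k) (rtT k)

theorem rootM_ge (k : ℕ) (hk : 10 ≤ k) : rootM k = rootM 10 := by
  unfold rootM
  rw [rtR_ge k hk, rtT_ge k hk]

theorem rootM_eq (k : ℕ) : rootM k = matT (RT k) := by
  by_cases hk : k < 10
  · ext i j
    exact entX_ok k (by omega) i j
  · rw [rootM_ge k (by omega), RT_ge k (by omega)]
    ext i j
    exact entX_ok 10 (by norm_num) i j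

theorem RT_cons (k : ℕ) : Cons (RT k) := by
  by_cases hk : k < 10
  · exact cons_of_consD _ (RT_consD k (by omega))
  · rw [RT_ge k (by omega)]
    exact cons_of_consD _ (RT_consD 10 (by norm_num))

theorem RT_sq' (k : ℕ) : mulT (RT k) (RT k) = idT := by
  by_cases hk : k < 10
  · exact RT_sq k (by omega)
  · rw [RT_ge k (by omega)]
    exact RT_sq 10 (by norm_num)

theorem rootM_sq (k : ℕ) : rootM k * rootM k = 1 := by
  rw [rootM_eq, ← matT_mulT _ _ (RT_cons k), RT_sq' k, matT_idT]

/-- the root element number `k` -/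
def rootU (k : ℕ) : GL chevG2.Idx F4 := ⟨rootM k, rootM k, rootM_sq k, rootM_sq k⟩

theorem rootU_rep (k : ℕ) : Rep (rootU k) (RT k) := ⟨RT_cons k, rootM_eq k⟩

theorem rootU_mem (k : ℕ) : rootU k ∈ chevG2.group F4 :=
  Subgroup.subset_closure ⟨rtR k, rtT k, rfl⟩

/-! ### Families of words -/

/-- words in a represented family are represented by the tables of the words -/
theorem rep_family (gens base : ℕ → GL chevG2.Idx F4) (tbB : ℕ → List ℕ)
    (hB : ∀ s, Rep (base s) (tbB s)) (WL TL : List (List ℕ)) (hlen : WL.length = TL.length)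
    (hgens : ∀ s, gens s = ((WL.getD s []).map base).prod)
    (hchk : ∀ s < WL.length, prodT tbB (WL.getD s []) = TL.getD s idT) :
    ∀ s, Rep (gens s) (TL.getD s idT) := by
  intro s
  rw [hgens]
  by_cases hs : s < WL.length
  · rw [← hchk s hs]
    exact Rep.prod base tbB hB _
  · rw [getD_ge WL [] s (not_lt.mp hs), getD_ge TL idT s (by rw [← hlen]; exact not_lt.mp hs)]
    exact Rep.one

/-! ### The six generators -/

/-- the generator number `s` as a word in the root elements -/
def WS (s : ℕ) : List ℕ := WSL.getD s []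

/-- the table of the generator number `s` -/
def TS (s : ℕ) : List ℕ := TSL.getD s idT

/-- the generator number `s` -/
def imgU (s : ℕ) : GL chevG2.Idx F4 := ((WS s).map rootU).prod

theorem TS_ok : ∀ s < WSL.length, prodT RT (WSL.getD s []) = TSL.getD s idT := by decide +kernel

theorem imgU_rep : ∀ s, Rep (imgU s) (TS s) :=
  rep_family imgU rootU RT rootU_rep WSL TSL rfl (fun _ => rfl) TS_ok

theorem imgU_mem (s : ℕ) : imgU s ∈ chevG2.group F4 := by
  apply Subgroup.list_prod_mem
  intro x hx
  obtain ⟨k, _, rfl⟩ := List.mem_map.mp hx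
  exact rootU_mem k

theorem imgU_ge (s : ℕ) (hs : 6 ≤ s) : imgU s = 1 := by
  unfold imgU WS
  rw [getD_ge WSL [] s hs]
  rfl

theorem imgU_word (w : List ℕ) (h : prodT TS w = idT) : (w.map imgU).prod = 1 := by
  have h1 := Rep.prod imgU TS imgU_rep w
  rw [h] at h1
  exact Rep.eq h1 Rep.one

theorem TS_sq : ∀ s < 6, prodT TS [s, s] = idT := by decide +kernel

theorem imgU_sq (s : ℕ) : imgU s * imgU s = 1 := by
  by_cases hs : s < 6
  · have h := imgU_word [s, s] (TS_sq s hs)
    rw [List.map_cons, List.map_cons, List.map_nil, List.prod_cons, List.prod_cons,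
      List.prod_nil, mul_one] at h
    exact h
  · rw [imgU_ge s (by omega), one_mul]

/-! ### The stabilisers -/

/-- the generator number `k` of the first stabiliser as a word -/
def D1 (k : ℕ) : List ℕ := D1L.getD k []

/-- the table of the generator number `k` of the first stabiliser -/
def T1 (k : ℕ) : List ℕ := T1L.getD k idT

/-- the generator number `k` of the first stabiliser -/
def e1U (k : ℕ) : GL chevG2.Idx F4 := ((D1 k).map imgU).prod

theorem T1_ok : ∀ k < D1L.length, prodT TS (D1L.getD k []) = T1L.getD k idT := by decide +kernel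

theorem e1U_rep : ∀ k, Rep (e1U k) (T1 k) :=
  rep_family e1U imgU TS imgU_rep D1L T1L rfl (fun _ => rfl) T1_ok

/-- the generator number `j` of the second stabiliser as a word -/
def D2 (j : ℕ) : List ℕ := D2L.getD j []

/-- the table of the generator number `j` of the second stabiliser -/
def T2 (j : ℕ) : List ℕ := T2L.getD j idT

/-- the generator number `j` of the second stabiliser -/
def e2U (j : ℕ) : GL chevG2.Idx F4 := ((D2 j).map e1U).prod

theorem T2_ok : ∀ j < D2L.length, prodT T1 (D2L.getD j []) = T2L.getD j idT := by decide +kernel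

theorem e2U_rep : ∀ j, Rep (e2U j) (T2 j) :=
  rep_family e2U e1U T1 e1U_rep D2L T2L rfl (fun _ => rfl) T2_ok

theorem fix1_chk : ∀ T ∈ T1L, act T c1 = c1 := by decide +kernel

theorem fix1_id : act idT c1 = c1 := by decide +kernel

theorem fix2_chk : ∀ T ∈ T2L, act T c2 = c2 := by decide +kernel

theorem fix2_id : act idT c2 = c2 := by decide +kernel

theorem orb1_chk : chkOrb TS c1 0 L1 = true := by decide +kernel

theorem orb2_chk : chkOrb T1 c2 0 L2 = true := by decide +kernel

theorem orb3_chk : chkOrb T2 c3 0 L3 = true := by decide +kernel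

theorem L1_len : L1.length = 4095 := by decide +kernel

theorem L2_len : L2.length = 1024 := by decide +kernel

theorem L3_len : L3.length = 60 := by decide +kernel

/-- the subgroup generated by the generators of the first stabiliser -/
def K1 : Subgroup (GL chevG2.Idx F4) := Subgroup.closure (Set.range e1U)

/-- the subgroup generated by the generators of the second stabiliser -/
def K2 : Subgroup (GL chevG2.Idx F4) := Subgroup.closure (Set.range e2U)

theorem K2_le_K1 : K2 ≤ K1 := by
  unfold K2
  rw [Subgroup.closure_le]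
  rintro _ ⟨j, rfl⟩
  apply Subgroup.list_prod_mem
  intro x hx
  obtain ⟨k, _, rfl⟩ := List.mem_map.mp hx
  exact Subgroup.subset_closure ⟨k, rfl⟩

theorem K1_fix : K1 ≤ fixG (vk c1) := by
  unfold K1
  rw [Subgroup.closure_le]
  rintro _ ⟨k, rfl⟩
  show ((e1U k : GL chevG2.Idx F4) : Matrix chevG2.Idx chevG2.Idx F4) *ᵥ vk c1 = vk c1
  rw [(e1U_rep k).act c1]
  have h : act (T1 k) c1 = c1 := getD_all T1L idT (fun T => act T c1 = c1) fix1_chk fix1_id k
  rw [h]

theorem K2_fix : K2 ≤ fixG (vk c2) := by
  unfold K2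
  rw [Subgroup.closure_le]
  rintro _ ⟨j, rfl⟩
  show ((e2U j : GL chevG2.Idx F4) : Matrix chevG2.Idx chevG2.Idx F4) *ᵥ vk c2 = vk c2
  rw [(e2U_rep j).act c2]
  have h : act (T2 j) c2 = c2 := getD_all T2L idT (fun T => act T c2 = c2) fix2_chk fix2_id j
  rw [h]

theorem card_K2 : 60 ≤ Nat.card K2 := by
  obtain ⟨S, hS1, hS2⟩ := orbit_of_chk e2U T2 e2U_rep c3 L3 orb3_chk
  have h := chain_step K2 ⊥ bot_le (vk c3) bot_le S hS2
  rw [hS1, L3_len, Subgroup.card_bot, mul_one] at h
  exact h

theorem card_K1 : 1024 * 60 ≤ Nat.card K1 := by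
  obtain ⟨S, hS1, hS2⟩ := orbit_of_chk e1U T1 e1U_rep c2 L2 orb2_chk
  have h := chain_step K1 K2 K2_le_K1 (vk c2) K2_fix S hS2
  rw [hS1, L2_len] at h
  exact (Nat.mul_le_mul_left 1024 card_K2).trans h

/-- a subgroup containing the six generators has order at least `4095 * 1024 * 60` -/
theorem card_lb (K0 : Subgroup (GL chevG2.Idx F4)) (h0 : ∀ s, imgU s ∈ K0) :
    4095 * (1024 * 60) ≤ Nat.card K0 := by
  obtain ⟨S, hS1, hS2⟩ := orbit_of_chk imgU TS imgU_rep c1 L1 orb1_chk
  have hle : Subgroup.closure (Set.range imgU) ≤ K0 := by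
    rw [Subgroup.closure_le]
    rintro _ ⟨s, rfl⟩
    exact h0 s
  have h1 : K1 ≤ K0 := by
    unfold K1
    rw [Subgroup.closure_le]
    rintro _ ⟨k, rfl⟩
    apply Subgroup.list_prod_mem
    intro x hx
    obtain ⟨s, _, rfl⟩ := List.mem_map.mp hx
    exact h0 s
  have h := chain_step K0 K1 h1 (vk c1) K1_fix S
    (fun x hx => by
      obtain ⟨g, hg, e⟩ := hS2 x hx
      exact ⟨g, hle hg, e⟩)
  rw [hS1, L1_len] at h
  exact (Nat.mul_le_mul_left 4095 card_K1).trans h

/-! ### The root elements as words in the generators -/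

/-- the number of an element of `F4` -/
def f4c : F4 → ℕ
  | .o => 0
  | .i => 1
  | .w => 2
  | .v => 3

/-- the element `x_r(t)` number `k = 4 r + t` as a word in the six generators -/
def XW (k : ℕ) : List ℕ := XWL.getD k []

/-- the table of the element `x_r(t)` number `k` -/
def XT (k : ℕ) : List ℕ := XTL.getD k idT

/-- the word number `k` in the six generators -/
def xU (k : ℕ) : GL chevG2.Idx F4 := ((XW k).map imgU).prod

theorem XT_ok : ∀ k < XWL.length, prodT TS (XWL.getD k []) = XTL.getD k idT := by decide +kernel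

theorem xU_rep : ∀ k, Rep (xU k) (XT k) :=
  rep_family xU imgU TS imgU_rep XWL XTL rfl (fun _ => rfl) XT_ok

/-- an entry of the matrix of `x_r(t)` -/
def entXX (r : Fin chevG2.nroots) (t : F4) (i j : chevG2.Idx) : F4 := chevG2.xMat F4 r t i j

theorem entXX_ok : ∀ (r : Fin chevG2.nroots) (t : F4) (i j : chevG2.Idx),
    entXX r t i j = entT (XT (4 * r.val + f4c t)) i j := by decide +kernel

/-- a subgroup containing the six generators contains all root elements -/
theorem root_mem (K0 : Subgroup (GL chevG2.Idx F4)) (h0 : ∀ s, imgU s ∈ K0)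
    (r : Fin chevG2.nroots) (t : F4) (g : GL chevG2.Idx F4)
    (hg : (g : Matrix chevG2.Idx chevG2.Idx F4) = chevG2.xMat F4 r t) : g ∈ K0 := by
  have hrep := xU_rep (4 * r.val + f4c t)
  have e : g = xU (4 * r.val + f4c t) := by
    apply Units.ext
    rw [hg, hrep.2]
    ext i j
    exact entXX_ok r t i j
  rw [e]
  apply Subgroup.list_prod_mem
  intro x hx
  obtain ⟨s, _, rfl⟩ := List.mem_map.mp hx
  exact h0 s

/-- a subgroup containing the six generators contains the Chevalley group -/
theorem group_le (K0 : Subgroup (GL chevG2.Idx F4)) (h0 : ∀ s, imgU s ∈ K0) :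
    chevG2.group F4 ≤ K0 := by
  unfold ChevalleyDatum.group
  rw [Subgroup.closure_le]
  rintro g ⟨r, t, hg⟩
  exact root_mem K0 h0 r t g hg

end Cfsg.Agent.Lib.Helper99.G24
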