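import Mathlib
import Cfsg.Prelude.Def_LieTwisted
import Cfsg.Agent.Lib.Helper99.TFChk6
import Cfsg.Agent.Lib.Helper99.T2Data
import Cfsg.Agent.Lib.Helper99.T2DataU
import Cfsg.Agent.Lib.Helper99.T2DataW

/-!
# A subgroup of index two of `²F₄(2)`: generators and a transversal of a point stabiliser

`T0` is generated by seven elements `S0E s` of `²F₄(2)`; a transversal `uhE` of the stabiliser of
the point `p0c` in `T0` is built along a tree, and `thE j` are five elements of `T0` fixing the point
and permuting the five lines through it.  The tables are packed into natural numbers.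
-/

set_option autoImplicit false
set_option maxRecDepth 100000
set_option maxHeartbeats 0

namespace Cfsg.Agent.Lib.Helper99.T2

open Cfsg.Lie Matrix Cfsg.Agent.Lib.Helper99.TF
open scoped MatrixGroups Pointwise

attribute [local instance] actV

/-- the entry `i` of a table of `w`-bit numbers packed into `T` -/
def getS (T w i : ℕ) : ℕ := (T >>> (w * i)) &&& (2 ^ w - 1)

/-- the mask of a coded matrix -/
def m2704 : ℕ := 2 ^ 2704 - 1

/-- the code of the transversal element number `i` -/
def UHt (i : ℕ) : ℕ := (UHC (i / 64) >>> (2704 * (i % 64))) &&& m2704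

/-- the code of the element number `e` of `Wf`, from the packed table -/
def WTq (e : ℕ) : ℕ := (WQC (e / 64) >>> (2704 * (e % 64))) &&& m2704

theorem WTq_eq : ∀ e < 2048, WTq e = WTt e := by decide +kernel

/-! ### The seven generators -/

/-- the generator number `s` of `T0` -/
def S0E (s : ℕ) : GL chevF4.Idx (ZMod 2) := ((S0WL.getD s []).map g5).prod

/-- its code -/
def S0T (s : ℕ) : ℕ := S0TL.getD s idP

theorem S0T_ok : ∀ s < S0WL.length, prodP G5T (S0WL.getD s []) = S0TL.getD s idP := by
  decide +kernel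

theorem S0E_rep : ∀ s, Rep (S0E s) (S0T s) := rep_words_total g5 G5T g5_rep S0WL S0TL rfl S0T_ok

theorem S0E_memG (s : ℕ) : S0E s ∈ twistedF4 (ZMod 2) 1 :=
  prod_mem_letters _ g5 _ (fun s' _ => g5_mem s')

/-- the subgroup of index two -/
def T0 : Subgroup (GL chevF4.Idx (ZMod 2)) := Subgroup.closure {x | ∃ s < 7, x = S0E s}

theorem S0E_ge (s : ℕ) (hs : 7 ≤ s) : S0E s = 1 := by
  unfold S0E
  rw [getD_ge S0WL [] s (by have hl : S0WL.length = 7 := rfl; omega)]
  rfl

theorem S0E_mem (s : ℕ) : S0E s ∈ T0 := by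
  by_cases hs : s < 7
  · exact Subgroup.subset_closure ⟨s, hs, rfl⟩
  · rw [S0E_ge s (by omega)]
    exact T0.one_mem

theorem T0_le : T0 ≤ twistedF4 (ZMod 2) 1 := by
  unfold T0
  rw [Subgroup.closure_le]
  rintro x ⟨s, _, rfl⟩
  exact S0E_memG s

/-! ### The transversal -/

/-- the parent of the point number `i` in the tree -/
def UPAR (i : ℕ) : ℕ := getS UPARP 12 i

/-- the generator leading from the parent to the point number `i` -/
def UGEN (i : ℕ) : ℕ := getS UGENP 12 i

/-- the rank of the point number `i` in the tree -/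
def URK (i : ℕ) : ℕ := getS URKP 12 i

theorem UH_tree : ∀ i < 1755, i ≠ 731 →
    UPAR i < 1755 ∧ URK (UPAR i) < URK i ∧ mulP (S0T (UGEN i)) (UHt (UPAR i)) = UHt i := by
  decide +kernel

theorem UH_i0 : UHt 731 = idP := by decide +kernel

theorem uh_exists : ∀ i < 1755, ∃ g ∈ T0, Rep g (UHt i) :=
  rep_tree T0 S0E S0T S0E_rep S0E_mem 1755 UHt UPAR UGEN URK 731 UH_i0 UH_tree

/-- the transversal element number `i` -/
noncomputable def uhE (i : ℕ) : GL chevF4.Idx (ZMod 2) :=
  if h : i < 1755 then Classical.choose (uh_exists i h) else 1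

theorem uhE_mem (i : ℕ) : uhE i ∈ T0 := by
  unfold uhE
  split_ifs with h
  · exact (Classical.choose_spec (uh_exists i h)).1
  · exact Subgroup.one_mem _

theorem uhE_rep (i : ℕ) (h : i < 1755) : Rep (uhE i) (UHt i) := by
  unfold uhE
  rw [dif_pos h]
  exact (Classical.choose_spec (uh_exists i h)).2

theorem uhE_i0 : uhE 731 = 1 := by
  have h := uhE_rep 731 (by norm_num)
  rw [UH_i0] at h
  exact Rep.eq h Rep.one

theorem UH_orb : ∀ i < 1755, actP (UHt i) p0c = XL i := by decide +kernel

/-! ### The five elements permuting the lines -/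

/-- the element number `j` -/
def thE (j : ℕ) : GL chevF4.Idx (ZMod 2) := ((THWL.getD j []).map S0E).prod

/-- its code -/
def THT (j : ℕ) : ℕ := THTL.getD j idP

theorem THT_ok : ∀ j < THWL.length, prodP S0T (THWL.getD j []) = THTL.getD j idP := by
  decide +kernel

theorem thE_rep : ∀ j, Rep (thE j) (THT j) :=
  rep_words_total S0E S0T S0E_rep THWL THTL rfl THT_ok

theorem thE_mem (j : ℕ) : thE j ∈ T0 := prod_mem_letters _ S0E _ (fun s _ => S0E_mem s)

theorem THW_zero : THWL.getD 0 [] = [] := by decide

theorem thE_zero : thE 0 = 1 := by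
  unfold thE
  rw [THW_zero]
  rfl

theorem thE_ge (j : ℕ) (hj : 5 ≤ j) : thE j = 1 := by
  unfold thE
  rw [getD_ge THWL [] j (by have hl : THWL.length = 5 := rfl; omega)]
  rfl

/-- the code of a point of the image of the line under the element number `j` -/
def LLH (j : ℕ) : ℕ := LLHL.getD j 0

theorem TH_fix : ∀ j < 5, actP (THT j) p0c = p0c ∧ actP (THT j) x0c = LLH j ∧ LLH j < 2 ^ 52 := by
  decide +kernel

theorem LLH_inj : ∀ i < 5, ∀ j < 5, (LLH i = LLH j ∨ LLH i = LLH j ^^^ p0c) → i = j := by
  decide +kernel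

/-! ### The Schreier tables -/

/-- the image of the point number `i` under the generator number `s` -/
def IMGH (s i : ℕ) : ℕ := getS IMGHP 12 (s * 1755 + i)

/-- the first factor of the Schreier element -/
def JJ (s i : ℕ) : ℕ := getS JJP 12 (s * 1755 + i)

/-- the second factor of the Schreier element -/
def EE (s i : ℕ) : ℕ := getS EEP 12 (s * 1755 + i)

end Cfsg.Agent.Lib.Helper99.T2
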