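import Mathlib
import Cfsg.Agent.Lib.Helper99.T2Base

/-!
# The Schreier identities of the subgroup of index two of `²F₄(2)`, part one
-/

set_option autoImplicit false
set_option maxRecDepth 100000
set_option maxHeartbeats 0

namespace Cfsg.Agent.Lib.Helper99.T2

open Cfsg.Agent.Lib.Helper99.TF

theorem SH0_chk : ∀ i < 1755, IMGH 0 i < 1755 ∧ EE 0 i < 2048 ∧ mulP (S0T 0) (UHt i) =
    mulP (mulP (UHt (IMGH 0 i)) (THT (JJ 0 i))) (WTq (EE 0 i)) := by decide +kernel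

theorem SH1_chk : ∀ i < 1755, IMGH 1 i < 1755 ∧ EE 1 i < 2048 ∧ mulP (S0T 1) (UHt i) =
    mulP (mulP (UHt (IMGH 1 i)) (THT (JJ 1 i))) (WTq (EE 1 i)) := by decide +kernel

theorem SH2_chk : ∀ i < 1755, IMGH 2 i < 1755 ∧ EE 2 i < 2048 ∧ mulP (S0T 2) (UHt i) =
    mulP (mulP (UHt (IMGH 2 i)) (THT (JJ 2 i))) (WTq (EE 2 i)) := by decide +kernel

theorem SH3_chk : ∀ i < 1755, IMGH 3 i < 1755 ∧ EE 3 i < 2048 ∧ mulP (S0T 3) (UHt i) =
    mulP (mulP (UHt (IMGH 3 i)) (THT (JJ 3 i))) (WTq (EE 3 i)) := by decide +kernel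

end Cfsg.Agent.Lib.Helper99.T2
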