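import Mathlib
import Cfsg.Agent.Lib.Helper99.T2Base

/-!
# The Schreier identities of the subgroup of index two of `²F₄(2)`, part two
-/

set_option autoImplicit false
set_option maxRecDepth 100000
set_option maxHeartbeats 0

namespace Cfsg.Agent.Lib.Helper99.T2

open Cfsg.Agent.Lib.Helper99.TF

theorem SH4_chk : ∀ i < 1755, IMGH 4 i < 1755 ∧ EE 4 i < 2048 ∧ mulP (S0T 4) (UHt i) =
    mulP (mulP (UHt (IMGH 4 i)) (THT (JJ 4 i))) (WTq (EE 4 i)) := by decide +kernel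

theorem SH5_chk : ∀ i < 1755, IMGH 5 i < 1755 ∧ EE 5 i < 2048 ∧ mulP (S0T 5) (UHt i) =
    mulP (mulP (UHt (IMGH 5 i)) (THT (JJ 5 i))) (WTq (EE 5 i)) := by decide +kernel

theorem SH6_chk : ∀ i < 1755, IMGH 6 i < 1755 ∧ EE 6 i < 2048 ∧ mulP (S0T 6) (UHt i) =
    mulP (mulP (UHt (IMGH 6 i)) (THT (JJ 6 i))) (WTq (EE 6 i)) := by decide +kernel

end Cfsg.Agent.Lib.Helper99.T2
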