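import Mathlib
import Cfsg.Prelude.Def_LieTwisted
import Cfsg.Agent.Lib.Helper99.T2SHa
import Cfsg.Agent.Lib.Helper99.T2SHb
import Cfsg.Agent.Lib.Helper88.T2IDX
import Cfsg.Agent.Lib.Helper37.T2CARD
import Cfsg.Agent.Lib.Helper61.T2NOTMEM
import Cfsg.Agent.Lib.Helper8.T2INJ

/-!
# The subgroup `T0` is the commutator subgroup of `²F₄(2)`, of index two and order 17971200

`T0 = uhE · P0` and `P0 = thE · Wf` by the Schreier identities; `²F₄(2) = T0 ∪ g5 2 · T0`, the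
element `g5 2` is not in `T0`, and the generators of `T0` are products of elements of square one,
which lie in the commutator subgroup.
-/

set_option autoImplicit false
set_option maxRecDepth 100000
set_option maxHeartbeats 0

namespace Cfsg.Agent.Lib.Helper99.T2

open Cfsg.Lie Matrix Cfsg.Agent.Lib.Helper99.TF
open scoped MatrixGroups Pointwise

attribute [local instance] actV

/-! ### The Schreier identities -/

theorem SH_chk (s : ℕ) (hs : s < 7) : ∀ i < 1755, IMGH s i < 1755 ∧ EE s i < 2048 ∧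
    mulP (S0T s) (UHt i) = mulP (mulP (UHt (IMGH s i)) (THT (JJ s i))) (WTq (EE s i)) := by
  interval_cases s
  · exact SH0_chk
  · exact SH1_chk
  · exact SH2_chk
  · exact SH3_chk
  · exact SH4_chk
  · exact SH5_chk
  · exact SH6_chk

theorem wE_repq (e : ℕ) (h : e < 2048) : Rep (wE e) (WTq e) := by
  rw [WTq_eq e h]
  exact wE_rep e h

/-- the generators of the point stabiliser: the five generators of `Wf` and the five elements
`thE j` -/
def l1E (g : ℕ) : GL chevF4.Idx (ZMod 2) := if g < 5 then zE g else thE (g - 5)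

/-- their codes -/
def L1T (g : ℕ) : ℕ := if g < 5 then ZT g else THT (g - 5)

theorem l1E_rep (g : ℕ) : Rep (l1E g) (L1T g) := by
  unfold l1E L1T
  split_ifs with h
  · exact zE_rep g
  · exact thE_rep (g - 5)

/-- the stabiliser of the point in `T0` -/
def P0 : Subgroup (GL chevF4.Idx (ZMod 2)) := Subgroup.closure {x | ∃ g < 10, x = l1E g}

theorem l1E_mem (g : ℕ) : l1E g ∈ P0 := by
  by_cases hg : g < 10
  · exact Subgroup.subset_closure ⟨g, hg, rfl⟩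
  · have e : l1E g = 1 := by
      unfold l1E
      rw [if_neg (by omega)]
      exact thE_ge (g - 5) (by omega)
    rw [e]
    exact P0.one_mem

theorem zE_mem_P0 (z : ℕ) : zE z ∈ P0 := by
  by_cases hz : z < 5
  · have e : l1E z = zE z := by
      unfold l1E
      rw [if_pos hz]
    rw [← e]
    exact l1E_mem z
  · rw [zE_ge z (by omega)]
    exact P0.one_mem

theorem thE_mem_P0 (j : ℕ) : thE j ∈ P0 := by
  have e : l1E (j + 5) = thE j := by
    unfold l1E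
    rw [if_neg (by omega), Nat.add_sub_cancel]
  rw [← e]
  exact l1E_mem (j + 5)

theorem Wf_le_P0 : Wf ≤ P0 := by
  unfold Wf
  rw [Subgroup.closure_le]
  rintro x ⟨z, _, rfl⟩
  exact zE_mem_P0 z

theorem SH_eq (s i : ℕ) (hs : s < 7) (hi : i < 1755) :
    S0E s * uhE i = uhE (IMGH s i) * (thE (JJ s i) * wE (EE s i)) := by
  obtain ⟨h1, h2, h3⟩ := SH_chk s hs i hi
  rw [← mul_assoc]
  have r1 : Rep (S0E s * uhE i) (mulP (S0T s) (UHt i)) := Rep.mul (S0E_rep _) (uhE_rep i hi)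
  have r2 : Rep (uhE (IMGH s i) * thE (JJ s i) * wE (EE s i))
      (mulP (mulP (UHt (IMGH s i)) (THT (JJ s i))) (WTq (EE s i))) :=
    Rep.mul (Rep.mul (uhE_rep _ h1) (thE_rep _)) (wE_repq _ h2)
  rw [h3] at r1
  exact Rep.eq r1 r2

theorem T0_dec : ∀ g ∈ T0, ∃ i : Fin 1755, ∃ k ∈ P0, g = uhE i * k := by
  have h0 : uhE ((⟨731, by norm_num⟩ : Fin 1755) : ℕ) ∈ P0 := by
    show uhE 731 ∈ P0
    rw [uhE_i0]
    exact P0.one_mem
  refine Cfsg.Agent.Lib.Helper4.TFCL.mem_transversal_mul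
    {x : GL chevF4.Idx (ZMod 2) | ∃ s < 7, x = S0E s} P0 (fun i : Fin 1755 => uhE i)
    ⟨731, by norm_num⟩ h0 ?_
  rintro x ⟨s, hs, rfl⟩ i
  exact ⟨⟨IMGH s i, (SH_chk s hs i i.2).1⟩, thE _ * wE _,
    P0.mul_mem (thE_mem_P0 _) (Wf_le_P0 (wE_mem _)), SH_eq s i hs i.2⟩

/-- the image of the line `j` under the generator `g` -/
def IMG1H (g j : ℕ) : ℕ := (IMG1HL.getD g []).getD j 0

/-- the Schreier element -/
def E1H (g j : ℕ) : ℕ := (E1HL.getD g []).getD j 0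

theorem L1H_chk : ∀ g < 10, ∀ j < 5, IMG1H g j < 5 ∧ E1H g j < 2048 ∧
    mulP (L1T g) (THT j) = mulP (THT (IMG1H g j)) (WTq (E1H g j)) := by decide +kernel

theorem L1H_eq (g j : ℕ) (hg : g < 10) (hj : j < 5) :
    l1E g * thE j = thE (IMG1H g j) * wE (E1H g j) := by
  obtain ⟨_, h2, h3⟩ := L1H_chk g hg j hj
  have r1 : Rep (l1E g * thE j) (mulP (L1T g) (THT j)) := Rep.mul (l1E_rep _) (thE_rep _)
  rw [h3] at r1
  exact Rep.eq r1 (Rep.mul (thE_rep _) (wE_repq _ h2))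

theorem P0_dec : ∀ h ∈ P0, ∃ j : Fin 5, ∃ k ∈ Wf, h = thE j * k := by
  have h0 : thE ((0 : Fin 5) : ℕ) ∈ Wf := by
    show thE 0 ∈ Wf
    rw [thE_zero]
    exact Wf.one_mem
  refine Cfsg.Agent.Lib.Helper4.TFCL.mem_transversal_mul
    {x : GL chevF4.Idx (ZMod 2) | ∃ g < 10, x = l1E g} Wf (fun j : Fin 5 => thE j) 0 h0 ?_
  rintro x ⟨g, hg, rfl⟩ j
  exact ⟨⟨IMG1H g j, (L1H_chk g hg j j.2).1⟩, wE _, wE_mem _, L1H_eq g j hg j.2⟩

/-! ### The point and the line -/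

theorem ZT_fix : ∀ z < 5, actP (ZT z) p0c = p0c ∧
    (actP (ZT z) x0c = x0c ∨ actP (ZT z) x0c = x0c ^^^ p0c) := by decide +kernel

theorem L1T_fix (g : ℕ) (hg : g < 10) : actP (L1T g) p0c = p0c := by
  unfold L1T
  split_ifs with h
  · exact (ZT_fix g h).1
  · exact (TH_fix (g - 5) (by omega)).1

theorem P0_fix : ∀ k ∈ P0, k • vk p0c = vk p0c := by
  intro k hk
  have h : P0 ≤ MulAction.stabilizer (GL chevF4.Idx (ZMod 2)) (vk p0c) := by
    unfold P0
    rw [Subgroup.closure_le]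
    rintro x ⟨g, hg, rfl⟩
    show l1E g • vk p0c = vk p0c
    rw [smul_vk (l1E_rep g), L1T_fix g hg]
  exact h hk

theorem Wf_line : ∀ k ∈ Wf, k • lineS x0c p0c = lineS x0c p0c := by
  intro k hk
  have h : Wf ≤ MulAction.stabilizer (GL chevF4.Idx (ZMod 2)) (lineS x0c p0c) := by
    unfold Wf
    rw [Subgroup.closure_le]
    rintro x ⟨z, hz, rfl⟩
    show zE z • lineS x0c p0c = lineS x0c p0c
    rw [smul_lineS (zE_rep z) x0c p0c (ZT_fix z hz).1]
    rcases (ZT_fix z hz).2 with e | e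
    · rw [e]
    · rw [e, lineS_xor]
  exact h hk

theorem uhE_smul (i : ℕ) (hi : i < 1755) : uhE i • vk p0c = vk (XL i) := by
  rw [smul_vk (uhE_rep i hi) p0c, UH_orb i hi]

theorem uhE_inj : ∀ i j : Fin 1755, (fun i : Fin 1755 => uhE i) i • vk p0c =
    (fun i : Fin 1755 => uhE i) j • vk p0c → i = j := by
  intro i j hij
  have hij' : uhE i • vk p0c = uhE j • vk p0c := hij
  rw [uhE_smul i i.2, uhE_smul j j.2] at hij'
  exact Fin.ext (XL_inj i j i.2 j.2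
    (Cfsg.Agent.Lib.Helper46.TFREPA.vk_inj _ _ (XL_chk i i.2).2 (XL_chk j j.2).2 hij'))

theorem thE_smul (j : ℕ) (hj : j < 5) : thE j • lineS x0c p0c = lineS (LLH j) p0c := by
  rw [smul_lineS (thE_rep j) x0c p0c (TH_fix j hj).1, (TH_fix j hj).2.1]

theorem thE_inj : ∀ i j : Fin 5, (fun j : Fin 5 => thE j) i • lineS x0c p0c =
    (fun j : Fin 5 => thE j) j • lineS x0c p0c → i = j := by
  intro i j hij
  have hij' : thE i • lineS x0c p0c = thE j • lineS x0c p0c := hij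
  rw [thE_smul i i.2, thE_smul j j.2] at hij'
  have h3 := lineS_inj (LLH i) (LLH j) p0c (TH_fix i i.2).2.2 (TH_fix j j.2).2.2
    (by norm_num [p0c]) hij'
  exact Fin.ext (LLH_inj i i.2 j j.2 h3)

/-! ### The two cosets of `T0` in `²F₄(2)` -/

theorem H_chk : G5T 0 = S0T 0 ∧ mulP (G5T 0) (G5T 2) = mulP (G5T 2) (S0T 2) ∧ G5T 1 = S0T 1 ∧
    mulP (G5T 1) (G5T 2) = mulP (G5T 2) (S0T 3) ∧ mulP (G5T 2) (G5T 2) = S0T 4 ∧
    G5T 3 = mulP (G5T 2) (S0T 5) ∧ mulP (G5T 3) (G5T 2) = S0T 6 := by decide +kernel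

theorem HE1 : g5 0 = S0E 0 := by
  have h := g5_rep 0
  rw [H_chk.1] at h
  exact Rep.eq h (S0E_rep 0)

theorem HE2 : g5 0 * g5 2 = g5 2 * S0E 2 := by
  have h := Rep.mul (g5_rep 0) (g5_rep 2)
  rw [H_chk.2.1] at h
  exact Rep.eq h (Rep.mul (g5_rep 2) (S0E_rep 2))

theorem HE3 : g5 1 = S0E 1 := by
  have h := g5_rep 1
  rw [H_chk.2.2.1] at h
  exact Rep.eq h (S0E_rep 1)

theorem HE4 : g5 1 * g5 2 = g5 2 * S0E 3 := by
  have h := Rep.mul (g5_rep 1) (g5_rep 2)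
  rw [H_chk.2.2.2.1] at h
  exact Rep.eq h (Rep.mul (g5_rep 2) (S0E_rep 3))

theorem HE5 : g5 2 * g5 2 = S0E 4 := by
  have h := Rep.mul (g5_rep 2) (g5_rep 2)
  rw [H_chk.2.2.2.2.1] at h
  exact Rep.eq h (S0E_rep 4)

theorem HE6 : g5 3 = g5 2 * S0E 5 := by
  have h := g5_rep 3
  rw [H_chk.2.2.2.2.2.1] at h
  exact Rep.eq h (Rep.mul (g5_rep 2) (S0E_rep 5))

theorem HE7 : g5 3 * g5 2 = S0E 6 := by
  have h := Rep.mul (g5_rep 3) (g5_rep 2)
  rw [H_chk.2.2.2.2.2.2] at h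
  exact Rep.eq h (S0E_rep 6)

/-- the two coset representatives -/
def tB : Bool → GL chevF4.Idx (ZMod 2)
  | false => 1
  | true => g5 2

theorem tB_false : tB false = 1 := rfl

theorem tB_true : tB true = g5 2 := rfl

theorem B_step (s : ℕ) (hs : s < 4) :
    ∀ j : Bool, ∃ j' : Bool, ∃ k ∈ T0, g5 s * tB j = tB j' * k := by
  intro j
  interval_cases s
  · cases j
    · refine ⟨false, S0E 0, S0E_mem 0, ?_⟩
      rw [tB_false, mul_one, one_mul]
      exact HE1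
    · refine ⟨true, S0E 2, S0E_mem 2, ?_⟩
      rw [tB_true]
      exact HE2
  · cases j
    · refine ⟨false, S0E 1, S0E_mem 1, ?_⟩
      rw [tB_false, mul_one, one_mul]
      exact HE3
    · refine ⟨true, S0E 3, S0E_mem 3, ?_⟩
      rw [tB_true]
      exact HE4
  · cases j
    · refine ⟨true, 1, T0.one_mem, ?_⟩
      rw [tB_false, tB_true]
    · refine ⟨false, S0E 4, S0E_mem 4, ?_⟩
      rw [tB_false, tB_true, one_mul]
      exact HE5
  · cases j
    · refine ⟨true, S0E 5, S0E_mem 5, ?_⟩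
      rw [tB_false, tB_true, mul_one]
      exact HE6
    · refine ⟨false, S0E 6, S0E_mem 6, ?_⟩
      rw [tB_false, tB_true, one_mul]
      exact HE7

theorem G_stepB (a : GL chevF4.Idx (ZMod 2))
    (ha : ∃ w ∈ f4Words (ZMod 2) 1,
      (a : Matrix chevF4.Idx chevF4.Idx (ZMod 2)) = chevF4.wordMat (ZMod 2) w) :
    ∀ j : Bool, ∃ j' : Bool, ∃ k ∈ T0, a * tB j = tB j' * k := by
  refine gen_cases
    (fun a => ∀ j : Bool, ∃ j' : Bool, ∃ k ∈ T0, a * tB j = tB j' * k) ?_ ?_ ?_ a ha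
  · exact Cfsg.Agent.Lib.Helper4.TFCL.step_one T0 tB
  · intro a b ha hb
    exact Cfsg.Agent.Lib.Helper4.TFCL.step_mul T0 tB a b ha hb
  · intro s hs
    rw [← g5_eq s hs]
    exact B_step s hs

theorem G_cases : ∀ g ∈ twistedF4 (ZMod 2) 1, g ∈ T0 ∨ ∃ k ∈ T0, g = g5 2 * k := by
  intro g hg
  have h0 : tB false ∈ T0 := by
    rw [tB_false]
    exact T0.one_mem
  obtain ⟨j, k, hk, h⟩ := Cfsg.Agent.Lib.Helper4.TFCL.mem_transversal_mul
    {g : GL chevF4.Idx (ZMod 2) | ∃ w ∈ f4Words (ZMod 2) 1,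
      (g : Matrix chevF4.Idx chevF4.Idx (ZMod 2)) = chevF4.wordMat (ZMod 2) w}
    T0 tB false h0 (fun s hs j => G_stepB s hs j) g hg
  cases j
  · left
    rw [h, tB_false, one_mul]
    exact hk
  · right
    exact ⟨k, hk, by rw [h, tB_true]⟩

/-! ### The generators of `T0` lie in the commutator subgroup -/

theorem SQ_chk : (∀ s < 7, s ≠ 5 → mulP (S0T s) (S0T s) = idP) ∧
    mulP (mulP (S0T 6) (S0T 5)) (mulP (S0T 6) (S0T 5)) = idP := by decide +kernel

theorem S0E_sq (s : ℕ) (hs : s < 7) (h5 : s ≠ 5) : S0E s * S0E s = 1 := by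
  have h := Rep.mul (S0E_rep s) (S0E_rep s)
  rw [SQ_chk.1 s hs h5] at h
  exact Rep.eq h Rep.one

theorem i2_sq : (S0E 6 * S0E 5) * (S0E 6 * S0E 5) = 1 := by
  have h := Rep.mul (Rep.mul (S0E_rep 6) (S0E_rep 5)) (Rep.mul (S0E_rep 6) (S0E_rep 5))
  rw [SQ_chk.2] at h
  exact Rep.eq h Rep.one

theorem S0E_mem_Df (s : ℕ) : S0E s ∈ Df := by
  by_cases hs : s < 7
  · by_cases h5 : s = 5
    · subst h5
      have h1 : S0E 6 ∈ Df :=
        involution_mem_Df _ (S0E_memG 6) (S0E_sq 6 (by norm_num) (by norm_num))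
      have h2 : S0E 6 * S0E 5 ∈ Df :=
        involution_mem_Df _ (Subgroup.mul_mem _ (S0E_memG 6) (S0E_memG 5)) i2_sq
      have e : S0E 5 = S0E 6 * (S0E 6 * S0E 5) := by
        rw [← mul_assoc, S0E_sq 6 (by norm_num) (by norm_num), one_mul]
      rw [e]
      exact Df.mul_mem h1 h2
    · exact involution_mem_Df _ (S0E_memG s) (S0E_sq s hs h5)
  · rw [S0E_ge s (by omega)]
    exact Df.one_mem

theorem T0_le_Df : T0 ≤ Df := by
  unfold T0
  rw [Subgroup.closure_le]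
  rintro x ⟨s, _, rfl⟩
  exact S0E_mem_Df s

/-! ### The index -/

theorem g52_not_mem_Wf : g5 2 ∉ Wf := by
  intro h
  obtain ⟨e, he⟩ := W_dec (g5 2)⁻¹ (Wf.inv_mem h)
  have h1 : g5 2 * wE e = 1 := by
    rw [← he, mul_inv_cancel]
  have h2 : (g5 2 * wE e) * (g5 2 * wE e) = 1 := by
    rw [h1, mul_one]
  exact not_invol e e.2 h2

theorem g52_fix : g5 2 • vk p0c = vk p0c := by
  rw [smul_vk (g5_rep 2), G5_fix 2 (by norm_num) (by norm_num)]

theorem g52_line : g5 2 • lineS x0c p0c = lineS x0c p0c :=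
  Uf_line (g5 2) (g5_mem_Uf 2 (Or.inr (Or.inl rfl)))

theorem g52_not_mem : g5 2 ∉ T0 :=
  t2_not_mem_of_chain T0 P0 Wf 1755 5 (fun i : Fin 1755 => uhE i) (fun j : Fin 5 => thE j)
    (vk p0c) (lineS x0c p0c) ⟨731, by norm_num⟩ 0 uhE_i0 thE_zero T0_dec P0_fix uhE_inj P0_dec
    Wf_line thE_inj (g5 2) g52_fix g52_line g52_not_mem_Wf

theorem index_two :
    (commutator ↥(twistedF4 (ZMod 2) 1)).map (twistedF4 (ZMod 2) 1).subtype = T0 ∧
      (commutator ↥(twistedF4 (ZMod 2) 1)).index = 2 :=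
  t2_comm_eq_of_index_two (twistedF4 (ZMod 2) 1) T0 (g5 2) T0_le (g5_mem 2) G_cases g52_not_mem
    (fun _ hx => T0_le_Df hx)

theorem Df_eq : Df = T0 := index_two.1

theorem Wf_le_T0 : Wf ≤ T0 := by
  rw [← Df_eq]
  exact Wf_le_Df

theorem P0_le_T0 : P0 ≤ T0 := by
  unfold P0
  rw [Subgroup.closure_le]
  rintro x ⟨g, _, rfl⟩
  show l1E g ∈ T0
  unfold l1E
  split_ifs with h
  · exact Wf_le_T0 (zE_mem g)
  · exact thE_mem (g - 5)

/-! ### The orders -/

/-- the sorted images of a vector under the elements of `Wf` -/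
def SV (r : ℕ) : ℕ := getS SVP 52 r

/-- the rank of the image under the element number `e` -/
def RKW (e : ℕ) : ℕ := getS RKWP 12 e

/-- the element with the image of rank `r` -/
def SIGW (r : ℕ) : ℕ := getS SIGWP 12 r

theorem WI_chk : ∀ e < 2048, RKW e < 2048 ∧ actP (WTq e) REGc = SV (RKW e) ∧ SIGW (RKW e) = e ∧
    SV (RKW e) < 2 ^ 52 := by decide +kernel

theorem SV_chk : ∀ r < 2047, SV r < SV (r + 1) := by decide +kernel

theorem wE_inj : ∀ e < 2048, ∀ e' < 2048, wE e = wE e' → e = e' := by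
  intro e he e' he' h
  refine t2_inj_of_sorted 2048 (fun e => actP (WTq e) REGc) SV RKW SIGW
    (fun e he => ⟨(WI_chk e he).1, (WI_chk e he).2.1, (WI_chk e he).2.2.1⟩)
    (fun r hr => SV_chk r (by omega)) e he e' he' ?_
  have h1 : wE e • vk REGc = vk (actP (WTq e) REGc) := smul_vk (wE_repq e he) REGc
  have h2 : wE e' • vk REGc = vk (actP (WTq e') REGc) := smul_vk (wE_repq e' he') REGc
  rw [h] at h1
  have b1 : actP (WTq e) REGc < 2 ^ 52 := by
    rw [(WI_chk e he).2.1]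
    exact (WI_chk e he).2.2.2
  have b2 : actP (WTq e') REGc < 2 ^ 52 := by
    rw [(WI_chk e' he').2.1]
    exact (WI_chk e' he').2.2.2
  exact Cfsg.Agent.Lib.Helper46.TFREPA.vk_inj _ _ b1 b2 (h1.symm.trans h2)

theorem card_of_enum_aux {Γ : Type*} [Group Γ] (W : Subgroup Γ) (N : ℕ) (w : ℕ → Γ)
    (hmem : ∀ e, w e ∈ W) (hsurj : ∀ g ∈ W, ∃ e : Fin N, g = w e)
    (hinj : ∀ e < N, ∀ e' < N, w e = w e' → e = e') : Nat.card W = N := by
  have hb : Function.Bijective (fun e : Fin N => (⟨w e, hmem e⟩ : ↥W)) := by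
    constructor
    · intro a b hab
      exact Fin.ext (hinj a a.2 b b.2 (congrArg Subtype.val hab))
    · rintro ⟨g, hg⟩
      obtain ⟨e, he⟩ := hsurj g hg
      exact ⟨e, Subtype.ext he.symm⟩
  rw [← Nat.card_congr (Equiv.ofBijective _ hb), Nat.card_fin]

theorem card_Wf : Nat.card Wf = 2048 := card_of_enum_aux Wf 2048 wE wE_mem W_dec wE_inj

theorem card_P0 : Nat.card P0 = 5 * Nat.card Wf :=
  t2_card_of_transversal P0 Wf 5 (fun j : Fin 5 => thE j) (lineS x0c p0c) Wf_le_P0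
    (fun j => thE_mem_P0 j) P0_dec Wf_line thE_inj

theorem card_T0 : Nat.card T0 = 1755 * Nat.card P0 :=
  t2_card_of_transversal T0 P0 1755 (fun i : Fin 1755 => uhE i) (vk p0c) P0_le_T0
    (fun i => uhE_mem i) T0_dec P0_fix uhE_inj

theorem card_T0' : Nat.card T0 = 2 ^ 11 * 3 ^ 3 * 5 ^ 2 * 13 := by
  have h : Nat.card T0 = 1755 * (5 * 2048) := by
    rw [card_T0, card_P0, card_Wf]
  exact h.trans (by norm_num)

/-! ### Two generators do not commute -/

theorem NC_chk : actP (S0T 0) (actP (S0T 1) 2) ≠ actP (S0T 1) (actP (S0T 0) 2) ∧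
    actP (S0T 0) (actP (S0T 1) 2) < 2 ^ 52 ∧ actP (S0T 1) (actP (S0T 0) 2) < 2 ^ 52 := by
  decide +kernel

theorem noncomm : S0E 0 * S0E 1 ≠ S0E 1 * S0E 0 := by
  intro h
  have h1 : (S0E 0 * S0E 1) • vk 2 = vk (actP (S0T 0) (actP (S0T 1) 2)) := by
    rw [mul_smul, smul_vk (S0E_rep 1), smul_vk (S0E_rep 0)]
  have h2 : (S0E 1 * S0E 0) • vk 2 = vk (actP (S0T 1) (actP (S0T 0) 2)) := by
    rw [mul_smul, smul_vk (S0E_rep 0), smul_vk (S0E_rep 1)]
  rw [h] at h1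
  exact NC_chk.1
    (Cfsg.Agent.Lib.Helper46.TFREPA.vk_inj _ _ NC_chk.2.1 NC_chk.2.2 (h1.symm.trans h2))

end Cfsg.Agent.Lib.Helper99.T2
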