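import Mathlib
import Cfsg.Prelude.Def_LieTwisted
import Cfsg.Agent.Lib.Helper99.T2Chk2
import Cfsg.Agent.Lib.Helper60.T2SIMP
import Cfsg.Agent.Lib.Helper13.T2TRANS
import Cfsg.Agent.Lib.Helper97.T2CONJ
import Cfsg.Agent.Lib.Helper97.T2CNT
import Cfsg.Agent.Lib.Helper36.T2FAITH
import Cfsg.Agent.Lib.Helper62.T2SOLV2
import Cfsg.Agent.Lib.Helper62.T2TREE
import Cfsg.Agent.Lib.Helper62.T2CCERT

/-!
# The subgroup `T0` of `²F₄(2)` is simple

`T0` is perfect, the stabiliser `P0` of a point is solvable, `T0` acts faithfully on the 1755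
points, and the sizes of the orbits of `P0` on the points show that every nontrivial subgroup of
`T0` normalised by `T0` is transitive on the points.
-/

set_option autoImplicit false
set_option maxRecDepth 100000
set_option maxHeartbeats 0

namespace Cfsg.Agent.Lib.Helper99.T2

open Cfsg.Lie Matrix Cfsg.Agent.Lib.Helper99.TF
open scoped MatrixGroups Pointwise commutatorElement

attribute [local instance] actV

/-! ### `T0` is perfect -/

theorem RW_chk : prodP S0T RWC1L = CT 1 ∧ prodP S0T RWC4L = CT 4 := by decide +kernel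

theorem cE1_mem : cE 1 ∈ T0 := by
  have h := Rep.prod S0E S0T S0E_rep RWC1L
  rw [RW_chk.1] at h
  rw [Rep.eq (cE_rep 1) h]
  exact prod_mem_letters _ S0E _ (fun s _ => S0E_mem s)

theorem cE4_mem : cE 4 ∈ T0 := by
  have h := Rep.prod S0E S0T S0E_rep RWC4L
  rw [RW_chk.2] at h
  rw [Rep.eq (cE_rep 4) h]
  exact prod_mem_letters _ S0E _ (fun s _ => S0E_mem s)

theorem cE0_mem : cE 0 ∈ T0 := by
  rw [← Df_eq]
  exact involution_mem_Df _ (cE_mem 0) c00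

theorem cE3_mem : cE 3 ∈ T0 := by
  rw [← Df_eq]
  exact involution_mem_Df _ (cE_mem 3) c33

theorem S0E0_comm : S0E 0 ∈ ⁅T0, T0⁆ := by
  rw [← HE1]
  exact t2_comm_cert T0 (cE 0) (cE 1) (cE 2) (g5 0) cE0_mem cE1_mem c00 c12 c_g0

theorem S0E4_comm : S0E 4 ∈ ⁅T0, T0⁆ := by
  rw [← HE5]
  exact t2_comm_cert T0 (cE 3) (cE 4) (cE 5) (g5 2 * g5 2) cE3_mem cE4_mem c33 c45 c_g22

theorem comm_conj (g : GL chevF4.Idx (ZMod 2)) (hg : g ∈ twistedF4 (ZMod 2) 1) :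
    ∀ y ∈ ⁅T0, T0⁆, g * y * g⁻¹ ∈ ⁅T0, T0⁆ :=
  t2_conj_mem_commutator_self T0 g (fun x hx => by
    rw [← Df_eq] at hx ⊢
    exact Df_conj x g hx hg)

theorem conj_of_eq (c x y : GL chevF4.Idx (ZMod 2)) (hc : c ∈ twistedF4 (ZMod 2) 1)
    (h : c * x = y * c) (hx : x ∈ ⁅T0, T0⁆) : y ∈ ⁅T0, T0⁆ := by
  have e : y = c * x * c⁻¹ := by
    rw [h, mul_inv_cancel_right]
  rw [e]
  exact comm_conj c hc x hx

theorem CJ_chk : mulP (prodP G5T CAWL) (G5T 0) = mulP (G5T 1) (prodP G5T CAWL) ∧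
    mulP (prodP G5T C6WL) (S0T 4) = mulP (S0T 6) (prodP G5T C6WL) ∧
    mulP (prodP G5T CI2WL) (S0T 4) = mulP (mulP (S0T 6) (S0T 5)) (prodP G5T CI2WL) := by
  decide +kernel

theorem S0E1_comm : S0E 1 ∈ ⁅T0, T0⁆ := by
  have r1 := Rep.mul (Rep.prod g5 G5T g5_rep CAWL) (g5_rep 0)
  rw [CJ_chk.1] at r1
  have h : (CAWL.map g5).prod * g5 0 = g5 1 * (CAWL.map g5).prod :=
    Rep.eq r1 (Rep.mul (g5_rep 1) (Rep.prod g5 G5T g5_rep CAWL))
  rw [HE1, HE3] at h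
  exact conj_of_eq _ _ _ (prod_mem_letters _ g5 _ (fun s _ => g5_mem s)) h S0E0_comm

theorem S0E2_comm : S0E 2 ∈ ⁅T0, T0⁆ := by
  have h : (g5 2)⁻¹ * S0E 0 = S0E 2 * (g5 2)⁻¹ := by
    rw [← HE1, inv_mul_eq_iff_eq_mul, ← mul_assoc, ← HE2, mul_assoc, mul_inv_cancel, mul_one]
  exact conj_of_eq _ _ _ (Subgroup.inv_mem _ (g5_mem 2)) h S0E0_comm

theorem S0E3_comm : S0E 3 ∈ ⁅T0, T0⁆ := by
  have h : (g5 2)⁻¹ * S0E 1 = S0E 3 * (g5 2)⁻¹ := by
    rw [← HE3, inv_mul_eq_iff_eq_mul, ← mul_assoc, ← HE4, mul_assoc, mul_inv_cancel, mul_one]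
  exact conj_of_eq _ _ _ (Subgroup.inv_mem _ (g5_mem 2)) h S0E1_comm

theorem S0E6_comm : S0E 6 ∈ ⁅T0, T0⁆ := by
  have r1 := Rep.mul (Rep.prod g5 G5T g5_rep C6WL) (S0E_rep 4)
  rw [CJ_chk.2.1] at r1
  have h : (C6WL.map g5).prod * S0E 4 = S0E 6 * (C6WL.map g5).prod :=
    Rep.eq r1 (Rep.mul (S0E_rep 6) (Rep.prod g5 G5T g5_rep C6WL))
  exact conj_of_eq _ _ _ (prod_mem_letters _ g5 _ (fun s _ => g5_mem s)) h S0E4_comm

theorem S0E5_comm : S0E 5 ∈ ⁅T0, T0⁆ := by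
  have r1 := Rep.mul (Rep.prod g5 G5T g5_rep CI2WL) (S0E_rep 4)
  rw [CJ_chk.2.2] at r1
  have h : (CI2WL.map g5).prod * S0E 4 = (S0E 6 * S0E 5) * (CI2WL.map g5).prod :=
    Rep.eq r1 (Rep.mul (Rep.mul (S0E_rep 6) (S0E_rep 5)) (Rep.prod g5 G5T g5_rep CI2WL))
  have h2 := conj_of_eq _ _ _ (prod_mem_letters _ g5 _ (fun s _ => g5_mem s)) h S0E4_comm
  have e : S0E 5 = S0E 6 * (S0E 6 * S0E 5) := by
    rw [← mul_assoc, S0E_sq 6 (by norm_num) (by norm_num), one_mul]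
  rw [e]
  exact Subgroup.mul_mem _ S0E6_comm h2

theorem S0E_comm : ∀ s < 7, S0E s ∈ ⁅T0, T0⁆ := by
  intro s hs
  interval_cases s
  · exact S0E0_comm
  · exact S0E1_comm
  · exact S0E2_comm
  · exact S0E3_comm
  · exact S0E4_comm
  · exact S0E5_comm
  · exact S0E6_comm

theorem T0_perfect : ∀ x ∈ T0, x ∈ ⁅T0, T0⁆ := by
  have h : T0 ≤ ⁅T0, T0⁆ :=
    (Subgroup.closure_le _).mpr (by
      rintro x ⟨s, hs, rfl⟩
      exact S0E_comm s hs)
  exact fun x hx => h hx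

/-! ### The orbits of the point stabiliser -/

/-- the class of the point number `i` -/
def CLS (i : ℕ) : ℕ := getS CLSP 4 i

/-- the parent of the point number `i` in the tree of its class -/
def PPAR (i : ℕ) : ℕ := getS PPARP 12 i

/-- the generator leading from the parent to the point number `i` -/
def PGEN (i : ℕ) : ℕ := getS PGENP 4 i

/-- the rank of the point number `i` in the tree of its class -/
def PRK (i : ℕ) : ℕ := getS PRKP 4 i

/-- the root of the tree of the class number `q` -/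
def ROOT (q : ℕ) : ℕ := ROOTL.getD q 0

/-- the size of the class number `q` -/
def SZ (q : ℕ) : ℕ := SZL.getD q 0

theorem PT_chk : ∀ i < 1755, i ≠ ROOT (CLS i) → PPAR i < 1755 ∧ CLS (PPAR i) = CLS i ∧
    PRK (PPAR i) < PRK i ∧ actP (L1T (PGEN i)) (XL (PPAR i)) = XL i := by decide +kernel

theorem CLS_lt : ∀ i < 1755, CLS i < 5 := by decide +kernel

theorem conn : ∀ i < 1755, ∀ j < 1755, CLS i = CLS j → ∃ k ∈ P0, k • vk (XL i) = vk (XL j) :=
  t2_conn_of_tree P0 l1E l1E_mem (fun i => vk (XL i)) 1755 CLS PPAR PGEN PRK ROOT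
    (fun i hi hne => by
      obtain ⟨h1, h2, h3, h4⟩ := PT_chk i hi hne
      refine ⟨h1, h2, h3, ?_⟩
      show l1E (PGEN i) • vk (XL (PPAR i)) = vk (XL i)
      rw [smul_vk (l1E_rep _), h4])

/-- the class of a point, as a map of finite types -/
def cF (i : Fin 1755) : Fin 5 := ⟨CLS i % 5, Nat.mod_lt _ (by norm_num)⟩

/-- the sizes of the classes -/
def szF (q : Fin 5) : ℕ := SZ q

theorem CNT_chk : ∀ q : Fin 5,
    (List.range 1755).countP (fun i => CLS i % 5 == (q : ℕ)) = SZ q := by decide +kernel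

theorem cF_sz : ∀ q : Fin 5,
    (Finset.univ.filter (fun i : Fin 1755 => cF i = q)).card = szF q :=
  fun q => (t2_card_filter_eq_count 1755 5 (fun i => CLS i % 5) cF (fun _ => rfl) q).trans
    (CNT_chk q)

theorem cF_conn : ∀ i j : Fin 1755, cF i = cF j →
    ∃ k ∈ P0, k • ((fun i : Fin 1755 => uhE i) i • vk p0c) =
      (fun i : Fin 1755 => uhE i) j • vk p0c := by
  intro i j h
  have h1 : CLS i % 5 = CLS j % 5 := congrArg Fin.val h
  rw [Nat.mod_eq_of_lt (CLS_lt i i.2), Nat.mod_eq_of_lt (CLS_lt j j.2)] at h1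
  obtain ⟨k, hk, e⟩ := conn i i.2 j j.2 h1
  refine ⟨k, hk, ?_⟩
  show k • (uhE i • vk p0c) = uhE j • vk p0c
  rw [uhE_smul i i.2, uhE_smul j j.2]
  exact e

theorem cF_i0 : cF ⟨731, by norm_num⟩ = 0 := by decide +kernel

theorem AR_chk : ∀ C : Finset (Fin 5), (0 : Fin 5) ∈ C → (∑ q ∈ C, szF q) ∣ 1755 →
    (∑ q ∈ C, szF q) = 1 ∨ (∑ q ∈ C, szF q) = 1755 := by decide +kernel

/-! ### The action on the points is faithful -/

theorem XL_line : XL 219 = x0c ∧ XL 1243 = x0c ^^^ p0c := by decide +kernel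

theorem fix_line (x : GL chevF4.Idx (ZMod 2))
    (hx : ∀ i : Fin 1755, x • ((fun i : Fin 1755 => uhE i) i • vk p0c) =
      (fun i : Fin 1755 => uhE i) i • vk p0c) :
    x • lineS x0c p0c = lineS x0c p0c := by
  have key : ∀ i < 1755, x • vk (XL i) = vk (XL i) := by
    intro i hi
    have h' : x • (uhE i • vk p0c) = uhE i • vk p0c := hx ⟨i, hi⟩
    rw [uhE_smul i hi] at h'
    exact h'
  have h1 := key 219 (by norm_num)
  have h2 := key 1243 (by norm_num)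
  rw [XL_line.1] at h1
  rw [XL_line.2] at h2
  show (fun v => x • v) '' {vk x0c, vk (x0c ^^^ p0c)} = {vk x0c, vk (x0c ^^^ p0c)}
  rw [Set.image_pair, h1, h2]

/-- the number of a point moved by the element number `e` of `Wf` -/
def MVW (e : ℕ) : ℕ := getS MVWP 1 e

theorem MV_chk : ∀ e < 2048, e ≠ 0 → MVW e < 1755 ∧
    actP (WTq e) (XL (MVW e)) ≠ XL (MVW e) ∧ actP (WTq e) (XL (MVW e)) < 2 ^ 52 := by
  decide +kernel

theorem Wf_faith (w : GL chevF4.Idx (ZMod 2)) (hw : w ∈ Wf)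
    (hx : ∀ i : Fin 1755, w • ((fun i : Fin 1755 => uhE i) i • vk p0c) =
      (fun i : Fin 1755 => uhE i) i • vk p0c) : w = 1 := by
  obtain ⟨e, he⟩ := W_dec w hw
  by_cases h0 : (e : ℕ) = 0
  · rw [he, h0]
    exact wE_zero
  · exfalso
    obtain ⟨m1, m2, m3⟩ := MV_chk e e.2 h0
    have h' : w • (uhE (MVW e) • vk p0c) = uhE (MVW e) • vk p0c := hx ⟨MVW e, m1⟩
    rw [uhE_smul _ m1, he, smul_vk (wE_repq e e.2)] at h'
    exact m2 (Cfsg.Agent.Lib.Helper46.TFREPA.vk_inj _ _ m3 (XL_chk _ m1).2 h')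

theorem T0_faith : ∀ x ∈ T0, (∀ i : Fin 1755, x • ((fun i : Fin 1755 => uhE i) i • vk p0c) =
    (fun i : Fin 1755 => uhE i) i • vk p0c) → x = 1 :=
  t2_faithful_of_chain T0 P0 Wf 1755 5 (fun i : Fin 1755 => uhE i) (fun j : Fin 5 => thE j)
    (vk p0c) (lineS x0c p0c) ⟨731, by norm_num⟩ 0 uhE_i0 thE_zero T0_dec P0_fix uhE_inj P0_dec
    Wf_line thE_inj fix_line Wf_faith

/-! ### Simplicity -/

theorem P0_solv : Group.IsSolvable ↥P0 :=
  t2_solvable_of_card P0 Wf Wf_le_P0 11 (card_Wf.trans (by norm_num)) card_P0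

theorem T0_trans : ∀ N : Subgroup (GL chevF4.Idx (ZMod 2)), N ≤ T0 →
    (∀ g ∈ T0, ∀ x ∈ N, g * x * g⁻¹ ∈ N) → N ≠ ⊥ →
    ∀ i : Fin 1755, ∃ x ∈ N, x • vk p0c = (fun i : Fin 1755 => uhE i) i • vk p0c :=
  t2_normal_transitive_of_suborbits T0 P0 1755 (fun i : Fin 1755 => uhE i) (vk p0c)
    ⟨731, by norm_num⟩ uhE_i0 P0_le_T0 (fun i => uhE_mem i) T0_dec P0_fix uhE_inj T0_faith
    5 cF szF cF_sz cF_conn
    (fun C hC => AR_chk C (by rw [← cF_i0]; exact hC))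

theorem T0_nontriv : ∃ x ∈ T0, x ≠ 1 :=
  ⟨S0E 0, S0E_mem 0, fun h => noncomm (by rw [h, one_mul, mul_one])⟩

theorem T0_simple : IsSimpleGroup ↥T0 :=
  t2_simple_of_chain T0 P0 1755 (fun i : Fin 1755 => uhE i) (vk p0c) ⟨731, by norm_num⟩ uhE_i0
    P0_le_T0 T0_dec P0_fix uhE_inj T0_nontriv T0_perfect P0_solv T0_trans

end Cfsg.Agent.Lib.Helper99.T2
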