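import Mathlib
import Cfsg.Prelude.Def_LieTwisted
import Cfsg.Agent.Lib.Helper99.T2Chk2
import Cfsg.Agent.Lib.Helper19.TGPGRP
import Cfsg.Agent.Lib.Helper89.TGSUB128

/-!
# Subgroups of index sixteen in the Sylow 2-subgroup `Wf` contain its central involution

A certificate, checked by the kernel, for: every subgroup of index `16` of `Wf` contains the
element `wE 1548`.  The certificate is a proof tree for the predicate `DP z j X Y`: whenever `M'` is
a 2-group containing `X`, `M` has index two in `M'` and contains `Y`, and `K` has index `2 ^ j` in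
`M`, then `z ∈ K`.
-/

set_option autoImplicit false
set_option maxRecDepth 100000
set_option maxHeartbeats 0

namespace Cfsg.Agent.Lib.Helper99.TG

open Cfsg.Lie Matrix Cfsg.Agent.Lib.Helper99.TF Cfsg.Agent.Lib.Helper99.T2
open scoped MatrixGroups

/-- the predicate proved by the certificate -/
def DP {Γ : Type*} [Group Γ] (z : Γ) (j : ℕ) (X Y : List Γ) : Prop :=
  ∀ M' M K : Subgroup Γ, IsPGroup 2 ↥M' → (∀ x ∈ X, x ∈ M') → M ≤ M' → M.relIndex M' = 2 →
    (∀ y ∈ Y, y ∈ M) → K ≤ M → K.relIndex M = 2 ^ j → z ∈ K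

theorem DP_pow {Γ : Type*} [Group Γ] [Finite Γ] (z : Γ) (j : ℕ) (X Y : List Γ) (y : Γ)
    (hy : ∀ S : Subgroup Γ, (∀ x ∈ Y, x ∈ S) → y ∈ S) (hz : y ^ (2 ^ j) = z) : DP z j X Y := by
  intro M' M K hP _ hM _ hY hK hKidx
  have hyM : y ∈ M := hy M hY
  have hPM : IsPGroup 2 ↥M := hP.to_le hM
  rw [← hz]
  exact tg_pow_mem M K j hK hPM hKidx y hyM

theorem DP_sq {Γ : Type*} [Group Γ] (z : Γ) (j : ℕ) (X Y : List Γ) (y : Γ)
    (hy : ∀ S : Subgroup Γ, (∀ x ∈ X, x ∈ S) → y ∈ S) (h : DP z j X ((y * y) :: Y)) :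
    DP z j X Y := by
  intro M' M K hP hX hM hidx hY hK hKidx
  have hyM' : y ∈ M' := hy M' hX
  have hsq := tg_index_two_sq M' M hM hidx y hyM'
  refine h M' M K hP hX hM hidx ?_ hK hKidx
  intro w hw
  rcases List.mem_cons.1 hw with rfl | hw
  · exact hsq
  · exact hY w hw

theorem DP_tri {Γ : Type*} [Group Γ] (z : Γ) (j : ℕ) (X Y : List Γ) (u v : Γ)
    (hu : ∀ S : Subgroup Γ, (∀ x ∈ X, x ∈ S) → u ∈ S)
    (hv : ∀ S : Subgroup Γ, (∀ x ∈ X, x ∈ S) → v ∈ S)
    (h1 : DP z j X (u :: Y)) (h2 : DP z j X (v :: Y)) (h3 : DP z j X ((u * v) :: Y)) :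
    DP z j X Y := by
  intro M' M K hP hX hM hidx hY hK hKidx
  have huM' : u ∈ M' := hu M' hX
  have hvM' : v ∈ M' := hv M' hX
  rcases tg_index_two_tri M' M hM hidx u v huM' hvM' with h | h | h
  · refine h1 M' M K hP hX hM hidx ?_ hK hKidx
    intro w hw
    rcases List.mem_cons.1 hw with rfl | hw
    · exact h
    · exact hY w hw
  · refine h2 M' M K hP hX hM hidx ?_ hK hKidx
    intro w hw
    rcases List.mem_cons.1 hw with rfl | hw
    · exact h
    · exact hY w hw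
  · refine h3 M' M K hP hX hM hidx ?_ hK hKidx
    intro w hw
    rcases List.mem_cons.1 hw with rfl | hw
    · exact h
    · exact hY w hw

theorem DP_down {Γ : Type*} [Group Γ] [Finite Γ] (z : Γ) (j : ℕ) (X Y : List Γ)
    (h : DP z j Y []) : DP z (j + 1) X Y := by
  intro M' M K hP _ hM _ hY hK hKidx
  have hPM : IsPGroup 2 ↥M := hP.to_le hM
  have hne : K ≠ M := by
    rintro rfl
    rw [Subgroup.relIndex_self] at hKidx
    have h2 : 2 ≤ 2 ^ (j + 1) := by
      calc 2 = 2 ^ 1 := by norm_num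
        _ ≤ 2 ^ (j + 1) := Nat.pow_le_pow_right (by norm_num) (by omega)
    omega
  obtain ⟨M2, hKM2, hM2M, hM2idx⟩ := tg_exists_index_two M K hK hPM hne
  have hmul : K.relIndex M2 * M2.relIndex M = K.relIndex M :=
    Subgroup.relIndex_mul_relIndex K M2 M hKM2 hM2M
  have hj : K.relIndex M2 = 2 ^ j := by
    rw [hM2idx, hKidx, pow_succ] at hmul
    omega
  exact h M M2 K hPM hY hM2M hM2idx (by intro y hy; simp at hy) hKM2 hj

/-! ### The checker -/

/-- certificates -/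
inductive Cert where
  | pow (a1 : ℕ) (steps : List (ℕ × ℕ)) (sqs : List ℕ) : Cert
  | sq (a1 : ℕ) (steps : List (ℕ × ℕ)) (q : ℕ) (next : Cert) : Cert
  | tri (a1 : ℕ) (s1 : List (ℕ × ℕ)) (b1 : ℕ) (s2 : List (ℕ × ℕ)) (uv : ℕ)
      (n1 n2 n3 : Cert) : Cert
  | down (next : Cert) : Cert

/-- membership in a list of numbers -/
def memN (a : ℕ) : List ℕ → Bool
  | [] => false
  | b :: r => Nat.beq a b || memN a r

theorem memN_mem : ∀ (L : List ℕ) (a : ℕ), memN a L = true → a ∈ L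
  | [], a, h => by simp [memN] at h
  | b :: r, a, h => by
      simp only [memN, Bool.or_eq_true] at h
      rcases h with h | h
      · have := Nat.eq_of_beq_eq_true h
        subst this
        exact List.mem_cons_self
      · exact List.mem_cons_of_mem _ (memN_mem r a h)

/-- membership in a list of triples -/
def memT (a b c : ℕ) : List (ℕ × ℕ × ℕ) → Bool
  | [] => false
  | t :: r => (Nat.beq a t.1 && Nat.beq b t.2.1 && Nat.beq c t.2.2) || memT a b c r

theorem memT_mem : ∀ (L : List (ℕ × ℕ × ℕ)) (a b c : ℕ), memT a b c L = true → (a, b, c) ∈ L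
  | [], a, b, c, h => by simp [memT] at h
  | t :: r, a, b, c, h => by
      simp only [memT, Bool.or_eq_true, Bool.and_eq_true] at h
      rcases h with ⟨⟨h1, h2⟩, h3⟩ | h
      · have e1 := Nat.eq_of_beq_eq_true h1
        have e2 := Nat.eq_of_beq_eq_true h2
        have e3 := Nat.eq_of_beq_eq_true h3
        have : (a, b, c) = t := by
          rw [e1, e2, e3]
        rw [this]
        exact List.mem_cons_self
      · exact List.mem_cons_of_mem _ (memT_mem r a b c h)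

/-- the end of a word -/
def runEnd : ℕ → List (ℕ × ℕ) → ℕ
  | acc, [] => acc
  | _, (_, c) :: r => runEnd c r

/-- the word is over the letters and its partial products are in the table -/
def runOK (PTL : List (ℕ × ℕ × ℕ)) (L : List ℕ) : ℕ → List (ℕ × ℕ) → Bool
  | _, [] => true
  | acc, (a, c) :: r => memN a L && memT acc a c PTL && runOK PTL L c r

/-- the end of a chain of squares -/
def sqEnd : ℕ → List ℕ → ℕ
  | c, [] => c
  | _, d :: r => sqEnd d r

/-- the chain of squares is in the table -/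
def sqOK (PTL : List (ℕ × ℕ × ℕ)) : ℕ → List ℕ → Bool
  | _, [] => true
  | c, d :: r => memT c c d PTL && sqOK PTL d r

/-- the checker -/
def chk (PTL : List (ℕ × ℕ × ℕ)) (zi : ℕ) : Cert → ℕ → List ℕ → List ℕ → Bool
  | .pow a1 steps sqs, j, _, Y =>
      memN a1 Y && runOK PTL Y a1 steps && sqOK PTL (runEnd a1 steps) sqs &&
        Nat.beq sqs.length j && Nat.beq (sqEnd (runEnd a1 steps) sqs) zi
  | .sq a1 steps q next, j, X, Y =>
      memN a1 X && runOK PTL X a1 steps && memT (runEnd a1 steps) (runEnd a1 steps) q PTL &&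
        chk PTL zi next j X (q :: Y)
  | .tri a1 s1 b1 s2 uv n1 n2 n3, j, X, Y =>
      memN a1 X && runOK PTL X a1 s1 && memN b1 X && runOK PTL X b1 s2 &&
        memT (runEnd a1 s1) (runEnd b1 s2) uv PTL &&
        chk PTL zi n1 j X (runEnd a1 s1 :: Y) && chk PTL zi n2 j X (runEnd b1 s2 :: Y) &&
        chk PTL zi n3 j X (uv :: Y)
  | .down _, 0, _, _ => false
  | .down next, j + 1, _, Y => chk PTL zi next j Y []

section sound

variable {Γ : Type*} [Group Γ] (w : ℕ → Γ) (PTL : List (ℕ × ℕ × ℕ))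
  (hPT : ∀ t ∈ PTL, w t.1 * w t.2.1 = w t.2.2)

include hPT

theorem runOK_mem (L : List ℕ) (S : Subgroup Γ) (hL : ∀ a ∈ L, w a ∈ S) :
    ∀ (steps : List (ℕ × ℕ)) (acc : ℕ), w acc ∈ S → runOK PTL L acc steps = true →
      w (runEnd acc steps) ∈ S
  | [], acc, h, _ => h
  | (a, c) :: r, acc, h, hok => by
      simp only [runOK, Bool.and_eq_true] at hok
      obtain ⟨⟨ha, hp⟩, hr⟩ := hok
      have e : w acc * w a = w c := hPT _ (memT_mem _ _ _ _ hp)
      have hc : w c ∈ S := by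
        rw [← e]
        exact S.mul_mem h (hL a (memN_mem _ _ ha))
      exact runOK_mem L S hL r c hc hr

theorem word_mem (L : List ℕ) (a1 : ℕ) (steps : List (ℕ × ℕ)) (h1 : memN a1 L = true)
    (h2 : runOK PTL L a1 steps = true) :
    ∀ S : Subgroup Γ, (∀ x ∈ L.map w, x ∈ S) → w (runEnd a1 steps) ∈ S := by
  intro S hS
  have hL : ∀ a ∈ L, w a ∈ S := fun a ha => hS _ (List.mem_map.2 ⟨a, ha, rfl⟩)
  exact runOK_mem w PTL hPT L S hL steps a1 (hL a1 (memN_mem _ _ h1)) h2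

theorem sqOK_pow : ∀ (l : List ℕ) (c : ℕ), sqOK PTL c l = true →
    w c ^ (2 ^ l.length) = w (sqEnd c l)
  | [], c, _ => by simp [sqEnd]
  | d :: r, c, h => by
      simp only [sqOK, Bool.and_eq_true] at h
      obtain ⟨hp, hr⟩ := h
      have e : w c * w c = w d := hPT _ (memT_mem _ _ _ _ hp)
      have ih := sqOK_pow r d hr
      simp only [List.length_cons, sqEnd]
      rw [pow_succ', pow_mul, pow_two, e]
      exact ih

theorem chk_sound [Finite Γ] (zi : ℕ) : ∀ (c : Cert) (j : ℕ) (X Y : List ℕ),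
    chk PTL zi c j X Y = true → DP (w zi) j (X.map w) (Y.map w) := by
  intro c
  induction c with
  | pow a1 steps sqs =>
      intro j X Y h
      simp only [chk, Bool.and_eq_true] at h
      obtain ⟨⟨⟨⟨h1, h2⟩, h3⟩, h4⟩, h5⟩ := h
      have e4 := Nat.eq_of_beq_eq_true h4
      have e5 := Nat.eq_of_beq_eq_true h5
      refine DP_pow (w zi) j _ _ (w (runEnd a1 steps)) (word_mem w PTL hPT Y a1 steps h1 h2) ?_
      rw [← e4, sqOK_pow w PTL hPT sqs _ h3, e5]
  | sq a1 steps q next ih =>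
      intro j X Y h
      simp only [chk, Bool.and_eq_true] at h
      obtain ⟨⟨⟨h1, h2⟩, h3⟩, h4⟩ := h
      have e : w (runEnd a1 steps) * w (runEnd a1 steps) = w q := hPT _ (memT_mem _ _ _ _ h3)
      refine DP_sq (w zi) j _ _ (w (runEnd a1 steps)) (word_mem w PTL hPT X a1 steps h1 h2) ?_
      rw [e]
      exact ih j X (q :: Y) h4
  | tri a1 s1 b1 s2 uv n1 n2 n3 ih1 ih2 ih3 =>
      intro j X Y h
      simp only [chk, Bool.and_eq_true] at h
      obtain ⟨⟨⟨⟨⟨⟨⟨h1, h2⟩, h3⟩, h4⟩, h5⟩, h6⟩, h7⟩, h8⟩ := h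
      have e : w (runEnd a1 s1) * w (runEnd b1 s2) = w uv := hPT _ (memT_mem _ _ _ _ h5)
      refine DP_tri (w zi) j _ _ (w (runEnd a1 s1)) (w (runEnd b1 s2))
        (word_mem w PTL hPT X a1 s1 h1 h2) (word_mem w PTL hPT X b1 s2 h3 h4)
        (ih1 j X (runEnd a1 s1 :: Y) h6) (ih2 j X (runEnd b1 s2 :: Y) h7) ?_
      rw [e]
      exact ih3 j X (uv :: Y) h8
  | down next ih =>
      intro j X Y h
      cases j with
      | zero => simp [chk] at h
      | succ j =>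
          simp only [chk] at h
          exact DP_down (w zi) j _ _ (ih j Y [] h)

end sound

/-! ### The data -/

/-- the table of products -/
def PTL : List (ℕ × ℕ × ℕ) := [(1, 4, 18), (4, 1, 8), (4, 4, 20), (8, 8, 139), (18, 18, 299), (20, 1, 36), (20, 299, 1909), (20, 1046, 1289), (30, 362, 1439), (36, 36, 906), (139, 139, 1541), (177, 177, 1411), (256, 256, 1548), (299, 1, 362), (299, 4, 1046), (299, 299, 1363), (303, 303, 1019), (303, 847, 2042), (346, 896, 1374), (362, 362, 1724), (397, 1572, 1548), (406, 406, 738), (464, 20, 30), (527, 1019, 1548), (568, 393, 1548), (618, 618, 1548), (623, 623, 716), (665, 847, 256), (678, 716, 1548), (716, 20, 1986), (716, 678, 1548), (716, 906, 1593), (716, 1872, 464), (716, 1909, 665), (766, 362, 256), (766, 766, 678), (802, 847, 874), (847, 847, 568), (874, 874, 1548), (896, 896, 1721), (906, 906, 716), (949, 949, 1548), (962, 4, 1932), (962, 20, 1724), (962, 766, 1201), (962,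 962, 1572), (962, 1327, 1806), (965, 20, 1721), (978, 847, 949), (1019, 1, 618), (1019, 847, 1877), (1019, 1872, 978), (1046, 1046, 962), (1055, 1196, 1548), (1070, 738, 1541), (1201, 1201, 716), (1289, 1289, 1160), (1307, 1307, 122), (1327, 1327, 965), (1358, 1358, 678), (1363, 1, 847), (1363, 4, 1886), (1363, 20, 766), (1363, 36, 1307), (1363, 362, 896), (1363, 906, 303), (1363, 962, 623), (1363, 1046, 1327), (1363, 1363, 1548), (1363, 1909, 477), (1363, 1944, 1872), (1374, 1374, 1548), (1411, 1411, 1548), (1439, 1439, 1548), (1541, 1541, 1548), (1572, 965, 2014), (1593, 477, 802), (1721, 1721, 1019), (1724, 1724, 527), (1730, 623, 1358), (1730, 1730, 397), (1806, 1806, 1196), (1872, 766, 346), (1877, 1877, 393), (1886, 1886, 1730), (1909, 20, 177), (1909, 36, 406), (1909, 1909, 1944), (1932, 1932, 2041), (1944, 906, 1070), (1986, 896, 256), (2014, 527, 1055), (2042, 2042, 1548)]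

/-- the certificate -/
def CERT : Cert := 
 .sq 4 [] 20
 (.sq 1 [(4, 18)] 299
 (.sq 4 [(1, 8)] 139
 (.tri 1 [] 4 [] 18
 (.down
 (.sq 299 [] 1363
 (.sq 139 [] 1541
 (.sq 20 [(299, 1909)] 1944
 (.sq 20 [(1, 36)] 906
 (.tri 20 [] 299 [] 1909
 (.tri 299 [] 1 [] 362
 (.pow 299 [] [1363, 1548])
 (.down
 (.sq 1363 [] 1548
 (.sq 906 [] 716
 (.sq 1363 [(906, 303)] 1019
 (.sq 1363 [(1, 847)] 568
 (.sq 20 [(1, 36)] 906
 (.tri 1363 [] 1944 [] 1872
 (.pow 1363 [] [1548])
 (.tri 1363 [] 20 [] 766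
 (.pow 1363 [] [1548])
 (.tri 1363 [] 1 [] 847
 (.pow 1363 [] [1548])
 (.pow 1019 [(1, 618)] [1548])
 (.down
 (.sq 906 [] 716
 (.sq 847 [] 568
 (.sq 1019 [(847, 1877)] 393
 (.pow 568 [(393, 1548)] []))))))
 (.tri 1363 [] 1 [] 847
 (.pow 1363 [] [1548])
 (.pow 1019 [(1, 618)] [1548])
 (.down
 (.sq 906 [] 716
 (.sq 766 [] 678
 (.pow 716 [(678, 1548)] []))))))
 (.tri 1363 [] 20 [] 766
 (.pow 1363 [] [1548])
 (.tri 1363 [] 1 [] 847
 (.pow 1363 [] [1548])
 (.pow 1019 [(1, 618)] [1548])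
 (.pow 1019 [(1872, 978), (847, 949)] [1548]))
 (.tri 1363 [] 1 [] 847
 (.pow 1363 [] [1548])
 (.pow 1019 [(1, 618)] [1548])
 (.pow 1019 [(1872, 978), (847, 949)] [1548]))))))))))
 (.down
 (.sq 1363 [] 1548
 (.sq 906 [] 716
 (.sq 362 [] 1724
 (.sq 1363 [(362, 896)] 1721
 (.tri 1363 [] 1944 [] 1872
 (.pow 1363 [] [1548])
 (.tri 1363 [] 20 [] 766
 (.pow 1363 [] [1548])
 (.tri 1363 [] 362 [] 896
 (.pow 1363 [] [1548])
 (.down
 (.sq 1724 [] 527
 (.sq 1721 [] 1019
 (.pow 527 [(1019, 1548)] []))))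
 (.pow 716 [(20, 1986), (896, 256)] [1548]))
 (.tri 1363 [] 362 [] 896
 (.pow 1363 [] [1548])
 (.pow 766 [(362, 256)] [1548])
 (.down
 (.sq 1724 [] 527
 (.sq 1721 [] 1019
 (.pow 527 [(1019, 1548)] []))))))
 (.tri 1363 [] 20 [] 766
 (.pow 1363 [] [1548])
 (.tri 1363 [] 362 [] 896
 (.pow 1363 [] [1548])
 (.pow 716 [(1872, 464), (20, 30), (362, 1439)] [1548])
 (.pow 716 [(20, 1986), (896, 256)] [1548]))
 (.tri 1363 [] 362 [] 896
 (.pow 1363 [] [1548])
 (.pow 766 [(362, 256)] [1548])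
 (.pow 1872 [(766, 346), (896, 1374)] [1548]))))))))))
 (.pow 299 [] [1363, 1548])
 (.tri 20 [] 1 [] 36
 (.pow 1909 [(20, 177)] [1411, 1548])
 (.down
 (.sq 1363 [] 1548
 (.sq 906 [] 716
 (.sq 1909 [] 1944
 (.sq 1363 [(906, 303)] 1019
 (.sq 1363 [(1, 847)] 568
 (.tri 1363 [] 906 [] 303
 (.pow 1363 [] [1548])
 (.tri 1363 [] 1909 [] 477
 (.pow 1363 [] [1548])
 (.tri 1363 [] 1 [] 847
 (.pow 1363 [] [1548])
 (.pow 1019 [(1, 618)] [1548])
 (.pow 716 [(1909, 665), (847, 256)] [1548]))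
 (.tri 1363 [] 1 [] 847
 (.pow 1363 [] [1548])
 (.pow 1019 [(1, 618)] [1548])
 (.pow 716 [(906, 1593), (477, 802), (847, 874)] [1548])))
 (.tri 1363 [] 1909 [] 477
 (.pow 1363 [] [1548])
 (.tri 1363 [] 1 [] 847
 (.pow 1363 [] [1548])
 (.pow 1019 [(1, 618)] [1548])
 (.pow 303 [(847, 2042)] [1548]))
 (.tri 1363 [] 1 [] 847
 (.pow 1363 [] [1548])
 (.pow 1019 [(1, 618)] [1548])
 (.pow 303 [(847, 2042)] [1548]))))))))))
 (.down
 (.sq 1363 [] 1548
 (.sq 906 [] 716
 (.sq 1909 [] 1944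
 (.sq 36 [] 906
 (.sq 1363 [(906, 303)] 1019
 (.sq 1363 [(36, 1307)] 122
 (.sq 1909 [(36, 406)] 738
 (.pow 1944 [(906, 1070), (738, 1541)] [1548]))))))))))))))))
 (.down
 (.sq 299 [] 1363
 (.sq 139 [] 1541
 (.sq 4 [] 20
 (.sq 20 [(299, 1909)] 1944
 (.sq 299 [(4, 1046)] 962
 (.tri 299 [] 4 [] 1046
 (.pow 299 [] [1363, 1548])
 (.down
 (.sq 1363 [] 1548
 (.sq 962 [] 1572
 (.sq 4 [] 20
 (.sq 1363 [(20, 766)] 678
 (.sq 1363 [(4, 1886)] 1730
 (.sq 962 [(4, 1932)] 2041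
 (.tri 1363 [] 962 [] 623
 (.pow 1363 [] [1548])
 (.tri 1363 [] 4 [] 1886
 (.pow 1363 [] [1548])
 (.down
 (.sq 1730 [] 397
 (.sq 962 [] 1572
 (.pow 397 [(1572, 1548)] []))))
 (.down
 (.sq 1730 [] 397
 (.sq 962 [] 1572
 (.pow 397 [(1572, 1548)] [])))))
 (.tri 1363 [] 4 [] 1886
 (.pow 1363 [] [1548])
 (.down
 (.sq 1730 [] 397
 (.sq 623 [] 716
 (.sq 4 [] 20
 (.sq 1730 [(623, 1358)] 678
 (.pow 716 [(678, 1548)] []))))))
 (.down
 (.sq 1730 [] 397
 (.sq 623 [] 716
 (.sq 1886 [] 1730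
 (.sq 1730 [(623, 1358)] 678
 (.pow 716 [(678, 1548)] [])))))))))))))))
 (.down
 (.sq 1363 [] 1548
 (.sq 962 [] 1572
 (.sq 1046 [] 962
 (.sq 1363 [(20, 766)] 678
 (.sq 1363 [(1046, 1327)] 965
 (.sq 20 [(1046, 1289)] 1160
 (.tri 1363 [] 20 [] 766
 (.pow 1363 [] [1548])
 (.tri 1363 [] 1046 [] 1327
 (.pow 1363 [] [1548])
 (.down
 (.sq 962 [] 1572
 (.sq 1046 [] 962
 (.sq 962 [(20, 1724)] 527
 (.sq 965 [(20, 1721)] 1019
 (.pow 527 [(1019, 1548)] []))))))
 (.down
 (.sq 962 [] 1572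
 (.sq 1327 [] 965
 (.sq 962 [(20, 1724)] 527
 (.sq 962 [(1327, 1806)] 1196
 (.pow 1572 [(965, 2014), (527, 1055), (1196, 1548)] [])))))))
 (.tri 1363 [] 1046 [] 1327
 (.pow 1363 [] [1548])
 (.down
 (.sq 962 [] 1572
 (.sq 766 [] 678
 (.sq 1046 [] 962
 (.sq 962 [(766, 1201)] 716
 (.pow 678 [(716, 1548)] []))))))
 (.down
 (.sq 962 [] 1572
 (.sq 766 [] 678
 (.sq 1327 [] 965
 (.sq 962 [(766, 1201)] 716
 (.pow 678 [(716, 1548)] []))))))))))))))))))))))
 (.pow 18 [] [299, 1363, 1548]))))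

theorem PT_chk : ∀ t ∈ PTL, t.1 < 2048 ∧ t.2.1 < 2048 ∧ t.2.2 < 2048 ∧
    mulP (WTq t.1) (WTq t.2.1) = WTq t.2.2 := by decide +kernel

theorem PT_valid : ∀ t ∈ PTL, wE t.1 * wE t.2.1 = wE t.2.2 := by
  intro t ht
  obtain ⟨h1, h2, h3, h4⟩ := PT_chk t ht
  have r1 : Rep (wE t.1 * wE t.2.1) (mulP (WTq t.1) (WTq t.2.1)) :=
    Rep.mul (wE_repq _ h1) (wE_repq _ h2)
  rw [h4] at r1
  exact Rep.eq r1 (wE_repq _ h3)

theorem CERT_chk : chk PTL 1548 CERT 3 [1, 4] [] = true := by decide +kernel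

/-- every subgroup of index sixteen of `Wf` contains `wE 1548` -/
theorem Wf_sub16 : ∀ K : Subgroup (GL chevF4.Idx (ZMod 2)), K ≤ Wf → K.relIndex Wf = 16 →
    wE 1548 ∈ K := by
  intro K hK hidx
  have hP : IsPGroup 2 ↥Wf := IsPGroup.of_card (n := 11) (by rw [card_Wf]; norm_num)
  have hne : K ≠ Wf := by
    rintro rfl
    rw [Subgroup.relIndex_self] at hidx
    norm_num at hidx
  obtain ⟨M, hKM, hMW, hMidx⟩ := tg_exists_index_two Wf K hK hP hne
  have hmul := Subgroup.relIndex_mul_relIndex K M Wf hKM hMW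
  have h8 : K.relIndex M = 2 ^ 3 := by
    rw [hMidx, hidx] at hmul
    omega
  have hS := @chk_sound (GL chevF4.Idx (ZMod 2)) _ wE PTL PT_valid _
  have hD := hS 1548 CERT 3 [1, 4] [] CERT_chk
  refine hD Wf M K hP ?_ hMW hMidx (by intro y hy; simp at hy) hKM h8
  intro x hx
  obtain ⟨a, _, rfl⟩ := List.mem_map.1 hx
  exact wE_mem a

/-- every subgroup of order at least `128` of `Wf` contains `wE 1548` -/
theorem Wf_sub128 : ∀ K : Subgroup (GL chevF4.Idx (ZMod 2)), K ≤ Wf → 128 ≤ Nat.card K →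
    wE 1548 ∈ K :=
  tg_sub128 Wf (wE 1548) card_Wf Wf_sub16

/-! ### The central involution -/

theorem zc_chk : ∀ g < 10, mulP (L1T g) (WTq 1548) = mulP (WTq 1548) (L1T g) := by
  decide +kernel

theorem zc_gen (g : ℕ) (hg : g < 10) : l1E g * wE 1548 = wE 1548 * l1E g := by
  have r1 : Rep (l1E g * wE 1548) (mulP (L1T g) (WTq 1548)) :=
    Rep.mul (l1E_rep g) (wE_repq _ (by norm_num))
  rw [zc_chk g hg] at r1
  exact Rep.eq r1 (Rep.mul (wE_repq _ (by norm_num)) (l1E_rep g))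

theorem zc_P0 : ∀ g ∈ P0, g * wE 1548 = wE 1548 * g := by
  have h : P0 ≤ Subgroup.centralizer {wE 1548} := by
    unfold P0
    rw [Subgroup.closure_le]
    rintro x ⟨g, hg, rfl⟩
    rw [SetLike.mem_coe, Subgroup.mem_centralizer_iff]
    intro y hy
    rw [Set.mem_singleton_iff] at hy
    rw [hy]
    exact (zc_gen g hg).symm
  intro g hg
  have := Subgroup.mem_centralizer_iff.1 (h hg) (wE 1548) (Set.mem_singleton _)
  exact this.symm

theorem z_ne_one : wE 1548 ≠ 1 := by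
  intro h
  have h0 : wE 0 = 1 := by
    have r := wE_repq 0 (by norm_num)
    have e : WTq 0 = idP := by decide +kernel
    rw [e] at r
    exact Rep.eq r Rep.one
  rw [← h0] at h
  have := wE_inj 1548 (by norm_num) 0 (by norm_num) h
  omega

end Cfsg.Agent.Lib.Helper99.TG
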