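import Mathlib
import Cfsg.Prelude.Def_LieTwisted
import Cfsg.Agent.Lib.Helper99.T2Chk3
import Cfsg.Agent.Lib.Helper99.TGCert
import Cfsg.Agent.Lib.Helper19.TGOVG
import Cfsg.Agent.Lib.Helper62.TGFIVE
import Cfsg.Agent.Lib.Helper34.TGIDX8
import Cfsg.Agent.Lib.Helper31.TGDEG
import Cfsg.Agent.Lib.Helper21.TGNO65
import Cfsg.Agent.Lib.Helper59.TGNO40
import Cfsg.Agent.Lib.Helper75.TGTRANSPORT

/-!
# The Tits group has no faithful doubly transitive action

The degree of such an action would be `40` or `65`, because a Sylow 2-subgroup `Wf` has an orbit of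
length at least `32` (every subgroup of order at least `128` of `Wf` contains its central
involution).  Degree `65` would give a subgroup of order `276480` containing the point stabiliser
`P0`, and degree `40` a subgroup of order `1280` of `P0`; neither exists.
-/

set_option autoImplicit false
set_option maxRecDepth 100000
set_option maxHeartbeats 0

namespace Cfsg.Agent.Lib.Helper99.TG

open Cfsg.Lie Matrix Cfsg.Agent.Lib.Helper99.TF Cfsg.Agent.Lib.Helper99.T2
open scoped MatrixGroups Pointwise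

attribute [local instance] actV

theorem card_P0' : Nat.card P0 = 10240 := by rw [card_P0, card_Wf]

theorem card_T0'' : Nat.card T0 = 17971200 := card_T0'.trans (by norm_num)

/-! ### No subgroup of order `276480` contains `P0` -/

theorem OV_chk : ∀ C : Finset (Fin 5), (0 : Fin 5) ∈ C → (∑ q ∈ C, szF q) ≠ 27 := by
  decide +kernel

theorem P0_over : ∀ H : Subgroup (GL chevF4.Idx (ZMod 2)), P0 ≤ H → H ≤ T0 →
    Nat.card H ≠ 276480 := by
  intro H hPH hHT hcard
  obtain ⟨C, hC, hc⟩ := tg_overgroup_card T0 P0 1755 (fun i : Fin 1755 => uhE i) (vk p0c)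
    ⟨731, by norm_num⟩ uhE_i0 P0_le_T0 (fun i => uhE_mem i) T0_dec P0_fix uhE_inj 5 cF szF cF_sz
    cF_conn H hPH hHT
  rw [cF_i0] at hC
  rw [hcard, card_P0'] at hc
  exact OV_chk C hC (by omega)

/-! ### No subgroup of order `1280` in `P0` -/

/-- the element given by a word in the generators of `P0` -/
def el (w : List ℕ) : GL chevF4.Idx (ZMod 2) := (w.map l1E).prod

theorem el_rep (w : List ℕ) : Rep (el w) (prodP L1T w) := Rep.prod l1E L1T l1E_rep w

theorem el_mem (w : List ℕ) : el w ∈ P0 := prod_mem_letters P0 l1E w (fun s _ => l1E_mem s)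

theorem el_append (u v : List ℕ) : el (u ++ v) = el u * el v := by
  unfold el
  rw [List.map_append, List.prod_append]

theorem el_cons (s : ℕ) (w : List ℕ) : el (s :: w) = l1E s * el w := by
  unfold el
  rw [List.map_cons, List.prod_cons]

theorem el_nil : el [] = 1 := by
  unfold el
  rw [List.map_nil, List.prod_nil]

/-- the word repeated -/
def repW (w : List ℕ) : ℕ → List ℕ
  | 0 => []
  | k + 1 => w ++ repW w k

theorem el_repW (w : List ℕ) : ∀ k, el (repW w k) = el w ^ k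
  | 0 => by rw [repW, el_nil, pow_zero]
  | k + 1 => by rw [repW, el_append, el_repW w k, pow_succ']

/-- the product of the conjugates of the word `fw` by the given words -/
def conjW (fw : List ℕ) : List (List ℕ × List ℕ) → List ℕ
  | [] => []
  | pq :: r => pq.1 ++ (fw ++ (pq.2 ++ conjW fw r))

theorem conjW_mem (fw : List ℕ) (N : Subgroup (GL chevF4.Idx (ZMod 2)))
    (hN : ∀ p ∈ P0, p * el fw * p⁻¹ ∈ N) :
    ∀ l : List (List ℕ × List ℕ), (∀ pq ∈ l, prodP L1T (pq.1 ++ pq.2) = idP) →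
      el (conjW fw l) ∈ N
  | [], _ => by
      rw [conjW, el_nil]
      exact N.one_mem
  | pq :: r, h => by
      have h1 : prodP L1T (pq.1 ++ pq.2) = idP := h pq List.mem_cons_self
      have e1 : el pq.1 * el pq.2 = 1 := by
        rw [← el_append]
        have r1 := el_rep (pq.1 ++ pq.2)
        rw [h1] at r1
        exact Rep.eq r1 Rep.one
      have e2 : el pq.2 = (el pq.1)⁻¹ := eq_inv_of_mul_eq_one_right e1
      have ih := conjW_mem fw N hN r (fun x hx => h x (List.mem_cons_of_mem _ hx))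
      rw [conjW, el_append, el_append, el_append, e2]
      have hc := hN (el pq.1) (el_mem pq.1)
      have e3 : el pq.1 * (el fw * ((el pq.1)⁻¹ * el (conjW fw r))) =
          (el pq.1 * el fw * (el pq.1)⁻¹) * el (conjW fw r) := by
        simp only [mul_assoc]
      rw [e3]
      exact N.mul_mem hc ih

/-- the word of an element of order five -/
def FW : List ℕ := [6]

/-- the word of an element generating the quotient by the normal closure -/
def TW : List ℕ := [3]

/-- the exponents -/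
def KL : List ℕ := [0, 0, 2, 3, 1, 0, 0, 2, 2, 2]

/-- the conjugating words -/
def CL : List (List (List ℕ × List ℕ)) :=
  [[([0, 3, 3, 1, 0], [3, 0, 2, 4]), ([6, 1, 0, 1, 0], [4, 8, 4, 0, 1, 0])],
  [([1, 0, 9, 0], [0, 9, 0, 1]), ([7, 1, 7, 0], [7, 0, 1, 7])],
  [([1, 2, 0, 1, 0], [3, 2, 1, 4, 0]), ([7, 0, 3, 3, 0], [0, 3, 9, 3, 0])],
  [],
  [([8, 1, 0, 1, 0], [8, 1, 0, 1, 0]), ([], [])],
  [],
  [([], [])],
  [([4, 4, 0, 9, 0], [0, 1, 0, 9, 0, 2]), ([7, 0, 3, 3, 0], [0, 3, 9, 3, 0])],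
  [([8, 4, 0], [0, 3, 8, 3, 4]), ([1], [1])],
  [([3, 1, 0, 3, 3], [4, 4, 2, 3, 1, 0]), ([7, 1, 7, 0], [7, 0, 1, 7])]]

theorem F5_chk : prodP L1T (repW FW 5) = idP := by decide +kernel

theorem T4_chk : prodP L1T (repW TW 4) = idP := by decide +kernel

theorem CL_chk : ∀ g < 10, (∀ pq ∈ CL.getD g [], prodP L1T (pq.1 ++ pq.2) = idP) ∧
    prodP L1T (g :: repW TW (KL.getD g 0)) = prodP L1T (conjW FW (CL.getD g [])) := by
  decide +kernel

theorem f_pow : el FW ^ 5 = 1 := by
  rw [← el_repW]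
  have r1 := el_rep (repW FW 5)
  rw [F5_chk] at r1
  exact Rep.eq r1 Rep.one

theorem t_pow : el TW ^ 4 = 1 := by
  rw [← el_repW]
  have r1 := el_rep (repW TW 4)
  rw [T4_chk] at r1
  exact Rep.eq r1 Rep.one

theorem P0_gen : P0 = Subgroup.closure {x | ∃ g < 10, x = l1E g} := by
  unfold P0
  rfl

theorem P0_slp : ∀ x ∈ {x : GL chevF4.Idx (ZMod 2) | ∃ g < 10, x = l1E g}, ∃ k : ℕ,
    x * el TW ^ k ∈ Subgroup.closure {x | ∃ p ∈ P0, x = p * el FW * p⁻¹} := by
  rintro x ⟨g, hg, rfl⟩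
  refine ⟨KL.getD g 0, ?_⟩
  obtain ⟨h1, h2⟩ := CL_chk g hg
  have e : l1E g * el TW ^ (KL.getD g 0) = el (conjW FW (CL.getD g [])) := by
    rw [← el_repW, ← el_cons]
    have r1 := el_rep (g :: repW TW (KL.getD g 0))
    rw [h2] at r1
    exact Rep.eq r1 (el_rep _)
  rw [e]
  exact conjW_mem FW (Subgroup.closure {x | ∃ p ∈ P0, x = p * el FW * p⁻¹})
    (fun p hp => Subgroup.subset_closure ⟨p, hp, rfl⟩) _ h1

theorem P0_t4 : el TW ^ 4 ∈ Subgroup.closure {x | ∃ p ∈ P0, x = p * el FW * p⁻¹} := by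
  rw [t_pow]
  exact Subgroup.one_mem _

theorem P0_no1280 : ∀ R : Subgroup (GL chevF4.Idx (ZMod 2)), R ≤ P0 → Nat.card R ≠ 1280 :=
  tg_no_index_eight P0 card_P0' (el FW) (el TW) (el_mem FW) (el_mem TW)
    {x | ∃ g < 10, x = l1E g} P0_gen P0_slp P0_t4
    (fun R hRP hR => tg_five_trivial P0 R hRP card_P0' hR (el FW) (el_mem FW) f_pow)

/-! ### The theorem -/

theorem tits_core {G : Type*} [Group G] [Finite G] {Ω : Type*} [Fintype Ω] [MulAction G Ω]
    [FaithfulSMul G Ω] (hΩ : 3 ≤ Fintype.card Ω) (h2 : MulAction.IsMultiplyPretransitive G Ω 2)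
    (S' P' : Subgroup G) (z' : G) (hG : Nat.card G = 17971200) (hS : Nat.card S' = 2048)
    (hzS : z' ∈ S') (hz1 : z' ≠ 1) (hzc : ∀ g ∈ P', g * z' = z' * g) (hSP : S' ≤ P')
    (hP : Nat.card P' = 10240)
    (hc : ∀ K : Subgroup G, K ≤ S' → 128 ≤ Nat.card K → z' ∈ K)
    (he : ∀ H : Subgroup G, P' ≤ H → Nat.card H ≠ 276480)
    (hf : ∀ R : Subgroup G, R ≤ P' → Nat.card R ≠ 1280) : False := by
  rcases tg_degree hΩ h2 hG S' z' hS hzS hz1 hc with h | h
  · exact tg_no_40 h h2 hG S' P' z' hS hzS hz1 hzc hSP hP hc hf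
  · exact tg_no_65 h h2 hG S' P' z' hS hzS hz1 hzc hSP he

/-- the isomorphism of the Tits group with `T0` -/
noncomputable def titsEquiv : TitsGroup ≃* ↥T0 :=
  (Subgroup.equivMapOfInjective (commutator ↥(twistedF4 (ZMod 2) 1))
    (twistedF4 (ZMod 2) 1).subtype (Subgroup.subtype_injective _)).trans
    (MulEquiv.subgroupCongr index_two.1)

theorem tits_no_two_transitive {Ω : Type*} [Fintype Ω] [MulAction TitsGroup Ω]
    [FaithfulSMul TitsGroup Ω] (hΩ : 3 ≤ Fintype.card Ω)
    (h2 : MulAction.IsMultiplyPretransitive TitsGroup Ω 2) : False := by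
  have h1 := @tg_transport (GL chevF4.Idx (ZMod 2)) _ _ T0 Wf P0 (wE 1548) Wf_le_P0 P0_le_T0
    card_T0'' card_Wf (wE_mem 1548) z_ne_one zc_P0 card_P0' Wf_sub128 P0_over P0_no1280
  have h3 := @h1 TitsGroup _ titsEquiv
  exact h3 (fun S' P' z' hG hS hzS hz1 hzc hSP hP hc he hf =>
    tits_core hΩ h2 S' P' z' hG hS hzS hz1 hzc hSP hP hc he hf)

end Cfsg.Agent.Lib.Helper99.TG
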